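import Cfsg.Agent.StdCo0.Perfect
import Cfsg.Agent.StdCo0.Cyclic
import Cfsg.Agent.CoOut.Co1Main
import Cfsg.Agent.ZStar.Theorem
import Cfsg.Prelude.Def_CaseTheorems

/-!
The central involution of a standard subgroup isomorphic to the automorphism group of the lattice
is isolated.
-/

set_option autoImplicit false

open scoped Pointwise commutatorElement

namespace CfsgLib.StdCo0

open Cfsg CfsgLib.Leech CfsgLib.Mathieu CfsgLib.Golay

/-- All automorphisms are inner, the group being perfect. -/
theorem inn_co0 (hperf : commutator Co0 = ⊤) (φ : MulAut Co0) :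
    ∃ c : Co0, ∀ x, φ x = c * x * c⁻¹ := by
  let ψ : MulAut Spor.Co1 := QuotientGroup.congr (Subgroup.center Co0) (Subgroup.center Co0) φ
    (Subgroup.characteristic_iff_map_eq.1 inferInstance φ)
  obtain ⟨q, hq⟩ := CfsgLib.CoOut.inn_co1 ψ
  obtain ⟨c, rfl⟩ := QuotientGroup.mk'_surjective _ q
  have hd : ∀ x, ∃ d ∈ Subgroup.center Co0, φ x = c * x * c⁻¹ * d := by
    intro x
    have h1 : toCo1 (φ x) = toCo1 (c * x * c⁻¹) := by
      rw [map_mul, map_mul, map_inv]
      have h2 : ψ (toCo1 x) = toCo1 (φ x) := rfl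
      rw [← h2, ← hq]
      rfl
    refine ⟨(c * x * c⁻¹)⁻¹ * φ x, QuotientGroup.eq.1 h1.symm, by group⟩
  refine ⟨c, fun x => ?_⟩
  let F : Subgroup Co0 :=
    { carrier := {y | φ y = c * y * c⁻¹}
      one_mem' := by simp
      mul_mem' := fun {a b} ha hb => by
        simp only [Set.mem_ofPred_eq] at ha hb ⊢; rw [map_mul, ha, hb]; group
      inv_mem' := fun {a} ha => by
        simp only [Set.mem_ofPred_eq] at ha ⊢; rw [map_inv, ha]; group }
  have hx : x ∈ F := by
    have h : (⊤ : Subgroup Co0) ≤ F := by
      rw [← hperf, commutator_def, Subgroup.commutator_le]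
      intro a _ b _
      obtain ⟨u, hu, ea⟩ := hd a
      obtain ⟨v, hv, eb⟩ := hd b
      have cu : ∀ y, u * y = y * u := fun y => (Subgroup.mem_center_iff.1 hu y).symm
      have cv : ∀ y, v * y = y * v := fun y => (Subgroup.mem_center_iff.1 hv y).symm
      show φ ⁅a, b⁆ = c * ⁅a, b⁆ * c⁻¹
      rw [map_commutatorElement, ea, eb]
      have key : ∀ p q : Co0, ⁅p * u, q * v⁆ = ⁅p, q⁆ := fun p q => by
        simp only [commutatorElement_def, mul_inv_rev]
        calc p * u * (q * v) * (u⁻¹ * p⁻¹) * (v⁻¹ * q⁻¹)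
            = p * (u * q) * (v * (u⁻¹ * p⁻¹)) * (v⁻¹ * q⁻¹) := by group
          _ = p * (q * u) * ((u⁻¹ * p⁻¹) * v) * (v⁻¹ * q⁻¹) := by rw [cu, cv]
          _ = p * q * p⁻¹ * q⁻¹ := by group
      rw [key]
      simp only [commutatorElement_def]
      group
    exact h (Subgroup.mem_top x)
  exact hx

variable {G : Type*} [Group G]

/-- The hypotheses: a standard subgroup with the given structure, and its embedding. -/
structure Setup (A : Subgroup G) (ι : Co0 →* G) : Prop where
  inj : Function.Injective ι
  range : ι.range = A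
  tight : IsTightlyEmbedded (Subgroup.centralizer (A : Set G))
  norm : Subgroup.normalizer (A : Set G) =
    Subgroup.normalizer (Subgroup.centralizer (A : Set G) : Set G)
  cyc : ∀ R : Sylow 2 ↥(Subgroup.centralizer (A : Set G)),
    IsCyclic ↥(R : Subgroup ↥(Subgroup.centralizer (A : Set G)))
  perfect : commutator Co0 = ⊤

namespace Setup

variable [Finite G] {A : Subgroup G} {ι : Co0 →* G} (h : Setup A ι)
include h

theorem mem_A (x : Co0) : ι x ∈ A := h.range ▸ ⟨x, rfl⟩

theorem z_mem_K : ι negOne ∈ Subgroup.centralizer (A : Set G) := by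
  intro a ha
  rw [SetLike.mem_coe, ← h.range] at ha
  obtain ⟨x, rfl⟩ := ha
  rw [← map_mul, ← map_mul]
  congr 1
  refine co0_ext fun i => ?_
  rw [mul_smul, mul_smul, negOne_smul, negOne_smul, co0_map_neg]

theorem orderOf_z : orderOf (ι negOne) = 2 := by
  rw [orderOf_injective ι h.inj]
  refine orderOf_eq_prime ?_ fun e => ?_
  · rw [pow_two]
    exact co0_ext fun i => by rw [mul_smul, negOne_smul, negOne_smul, neg_neg, one_smul]
  · have h1 : negOne • axisVec none = axisVec none := by rw [e, one_smul]
    rw [negOne_smul] at h1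
    exact absurd (congrArg (fun v : leechLattice => (v : GolayPt → ℤ) none) h1) (by decide +kernel)

theorem commute_K {k : G} (hk : k ∈ Subgroup.centralizer (A : Set G)) (x : Co0) :
    k * ι x = ι x * k := (hk (ι x) (h.mem_A x)).symm

theorem eq_z {k : G} (hk : k ∈ Subgroup.centralizer (A : Set G)) (h2 : k * k = 1) :
    k = 1 ∨ k = ι negOne := by
  by_cases hk1 : k = 1
  · exact Or.inl hk1
  refine Or.inr ?_
  haveI : Fact (Nat.Prime 2) := ⟨Nat.prime_two⟩
  set K := Subgroup.centralizer (A : Set G)
  let kK : K := ⟨k, hk⟩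
  let zK : K := ⟨ι negOne, h.z_mem_K⟩
  have hcom : kK * zK = zK * kK := Subtype.ext (h.commute_K hk negOne)
  have hkk : kK * kK = 1 := Subtype.ext h2
  have hzz : zK * zK = 1 := Subtype.ext (by
    show ι negOne * ι negOne = 1
    rw [← pow_two, ← h.orderOf_z, pow_orderOf_eq_one])
  have hpg : IsPGroup 2 (Subgroup.closure ({kK, zK} : Set K)) := by
    intro x
    refine ⟨1, ?_⟩
    obtain ⟨x, hx⟩ := x
    refine Subtype.ext ?_
    show x ^ 2 ^ 1 = 1
    have key : x ^ 2 = 1 ∧ Commute x kK ∧ Commute x zK := by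
      induction hx using Subgroup.closure_induction with
      | mem y hy =>
        rcases hy with rfl | rfl
        · exact ⟨by rw [pow_two, hkk], Commute.refl _, hcom⟩
        · exact ⟨by rw [pow_two, hzz], hcom.symm, Commute.refl _⟩
      | one => exact ⟨one_pow _, Commute.one_left _, Commute.one_left _⟩
      | mul a b ha hb iha ihb =>
        have hab : Commute a b := by
          clear ihb
          induction hb using Subgroup.closure_induction with
          | mem y hy =>
            rcases hy with rfl | rfl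
            · exact iha.2.1
            · exact iha.2.2
          | one => exact Commute.one_right _
          | mul c d _ _ hc hd => exact hc.mul_right hd
          | inv c _ hc => exact hc.inv_right
        exact ⟨by rw [hab.mul_pow, iha.1, ihb.1, one_mul], iha.2.1.mul_left ihb.2.1,
          iha.2.2.mul_left ihb.2.2⟩
      | inv a _ iha => exact ⟨by rw [inv_pow, iha.1, inv_one], iha.2.1.inv_left, iha.2.2.inv_left⟩
    rw [pow_one]
    exact key.1
  obtain ⟨R, hR⟩ := hpg.exists_le_sylow
  haveI := h.cyc R
  obtain ⟨g, hg⟩ := IsCyclic.exists_generator (α := ↥(R : Subgroup K))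
  have hkR : kK ∈ (R : Subgroup K) := hR (Subgroup.subset_closure (Or.inl rfl))
  have hzR : zK ∈ (R : Subgroup K) := hR (Subgroup.subset_closure (Or.inr rfl))
  have hk1' : (⟨kK, hkR⟩ : (R : Subgroup K)) ≠ 1 := fun e =>
    hk1 (congrArg (fun r : (R : Subgroup K) => ((r : K) : G)) e)
  have hz1' : (⟨zK, hzR⟩ : (R : Subgroup K)) ≠ 1 := fun e => by
    have := congrArg (fun r : (R : Subgroup K) => ((r : K) : G)) e
    simp only [OneMemClass.coe_one] at this
    have h0 := h.orderOf_z
    rw [show ι negOne = 1 from this, orderOf_one] at h0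
    norm_num at h0
  by_contra hne
  classical
  haveI : Fintype (R : Subgroup K) := Fintype.ofFinite _
  have hcard := IsCyclic.card_pow_eq_one_le (α := ↥(R : Subgroup K)) (n := 2) (by norm_num)
  have hsub : ({1, ⟨kK, hkR⟩, ⟨zK, hzR⟩} : Finset (R : Subgroup K)) ⊆
      Finset.univ.filter (fun a => a ^ 2 = 1) := by
    intro a ha
    simp only [Finset.mem_insert, Finset.mem_singleton] at ha
    rw [Finset.mem_filter]
    refine ⟨Finset.mem_univ _, ?_⟩
    rcases ha with rfl | rfl | rfl
    · exact one_pow _
    · exact Subtype.ext (by rw [SubmonoidClass.coe_pow, pow_two]; exact hkk)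
    · exact Subtype.ext (by rw [SubmonoidClass.coe_pow, pow_two]; exact hzz)
  have h3 : ({1, ⟨kK, hkR⟩, ⟨zK, hzR⟩} : Finset (R : Subgroup K)).card = 3 := by
    rw [Finset.card_eq_three]
    exact ⟨_, _, _, hk1'.symm, hz1'.symm,
      fun e => hne (congrArg (fun r : (R : Subgroup K) => ((r : K) : G)) e), rfl⟩
  have := Finset.card_le_card hsub
  omega

theorem cent_le {g : G} (hg : g * ι negOne = ι negOne * g) :
    g ∈ Subgroup.normalizer (A : Set G) := by
  rw [h.norm]
  by_contra hgn
  have hodd := h.tight.2 g hgn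
  have hz : ι negOne ∈ Subgroup.centralizer (A : Set G) ⊓
      (Subgroup.centralizer (A : Set G)).map (MulAut.conj g).toMonoidHom := by
    refine Subgroup.mem_inf.2 ⟨h.z_mem_K, Subgroup.mem_map.2 ⟨_, h.z_mem_K, ?_⟩⟩
    show g * ι negOne * g⁻¹ = ι negOne
    rw [hg, mul_inv_cancel_right]
  have h2 : 2 ∣ Nat.card ↥(Subgroup.centralizer (A : Set G) ⊓
      (Subgroup.centralizer (A : Set G)).map (MulAut.conj g).toMonoidHom) := by
    have := orderOf_dvd_natCard (G := ↥(Subgroup.centralizer (A : Set G) ⊓
      (Subgroup.centralizer (A : Set G)).map (MulAut.conj g).toMonoidHom)) ⟨ι negOne, hz⟩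
    rwa [Subgroup.orderOf_mk, h.orderOf_z] at this
  exact (Nat.not_even_iff_odd.2 hodd) (even_iff_two_dvd.2 h2)

/-- The normaliser is the product with the centraliser. -/
theorem decomp {g : G} (hg : g * ι negOne = ι negOne * g) :
    ∃ a : Co0, ∃ k ∈ Subgroup.centralizer (A : Set G), g = ι a * k := by
  have hn := h.cent_le hg
  have hmem : ∀ x, g * ι x * g⁻¹ ∈ ι.range := fun x => by
    rw [h.range]; exact (Subgroup.mem_normalizer_iff.1 hn _).1 (h.mem_A x)
  have hmem' : ∀ x, g⁻¹ * ι x * g ∈ ι.range := fun x => by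
    rw [h.range]
    refine (Subgroup.mem_normalizer_iff.1 hn _).2 ?_
    rw [show g * (g⁻¹ * ι x * g) * g⁻¹ = ι x by group]
    exact h.mem_A x
  choose f hf using hmem
  choose f' hf' using hmem'
  let φ : MulAut Co0 :=
    { toFun := f
      invFun := f'
      left_inv := fun x => h.inj (by rw [hf', hf]; group)
      right_inv := fun x => h.inj (by rw [hf, hf']; group)
      map_mul' := fun x y => h.inj (by rw [map_mul, hf, hf, hf, map_mul]; group) }
  obtain ⟨c, hc⟩ := inn_co0 h.perfect φ
  refine ⟨c, (ι c)⁻¹ * g, ?_, by group⟩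
  intro a ha
  rw [SetLike.mem_coe, ← h.range] at ha
  obtain ⟨x, rfl⟩ := ha
  have e := congrArg ι (hc x)
  rw [show ι (φ x) = g * ι x * g⁻¹ from hf x, map_mul, map_mul, map_inv] at e
  calc ι x * ((ι c)⁻¹ * g) = (ι c)⁻¹ * (ι c * ι x * (ι c)⁻¹) * g := by group
    _ = (ι c)⁻¹ * (g * ι x * g⁻¹) * g := by rw [e]
    _ = (ι c)⁻¹ * g * ι x := by group

/-- A perfect centralising group goes into the conjugate. -/
theorem pull {a : Co0} {P : Subgroup Co0} {gens : Set Co0} (hP : PerfGens a P gens) {g : G}
    {k : G} (hk : k ∈ Subgroup.centralizer (A : Set G))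
    (e : g * ι negOne * g⁻¹ = ι a * k) :
    ∀ p ∈ P, g⁻¹ * ι p * g ∈ A := by
  let c : G →* G := (MulAut.conj g⁻¹).toMonoidHom
  have hc : ∀ x, c x = g⁻¹ * x * g := fun x => by
    show g⁻¹ * x * g⁻¹⁻¹ = _
    rw [inv_inv]
  let f : Co0 →* G := c.comp ι
  have hle : P.map f ≤ A := by
    refine le_of_perfect (fun k hk b hb => (hk b hb).symm) h.cyc (gens := f '' gens) ?_ ?_ ?_ ?_
    · rw [hP.closure_eq, MonoidHom.map_closure]
    · rintro _ ⟨x, hx, rfl⟩; rw [← map_pow, hP.two_power x hx, map_one]
    · rintro _ ⟨x, hx, rfl⟩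
      rw [← Subgroup.map_commutator]
      exact Subgroup.mem_map_of_mem f (hP.perfect hx)
    · rintro _ ⟨x, hx, rfl⟩
      have hcomm : (g⁻¹ * ι x * g) * ι negOne = ι negOne * (g⁻¹ * ι x * g) := by
        have h1 : ι x * (g * ι negOne * g⁻¹) = (g * ι negOne * g⁻¹) * ι x := by
          rw [e, ← mul_assoc, ← map_mul, hP.comm x hx, map_mul, mul_assoc, ← h.commute_K hk,
            mul_assoc]
        calc (g⁻¹ * ι x * g) * ι negOne = g⁻¹ * (ι x * (g * ι negOne * g⁻¹)) * g := by group
          _ = g⁻¹ * ((g * ι negOne * g⁻¹) * ι x) * g := by rw [h1]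
          _ = ι negOne * (g⁻¹ * ι x * g) := by group
      obtain ⟨b, l, hl, eb⟩ := h.decomp hcomm
      exact ⟨ι b, h.mem_A b, l, hl, by rw [← eb]; exact hc _⟩
  intro p hp
  rw [← hc]
  exact hle ⟨p, hp, rfl⟩

/-- A sign change is not conjugate to the central involution. -/
theorem no_sign {U K : ℕ} {S : List (List ℕ)} {cs : List (List (List ℕ × List ℕ))}
    (hU : inCode U = true) (hK : inCode K = true) (hK0 : K ≠ 0)
    (hperf : perfOK (U, idTab) (signLetters S) (signLetters S) cs = true)
    {Ts : List (ℕ × ℕ)} {P R : ℕ} {roots : List (ℕ × List ℕ)}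
    (horb : orbitOK S U K Ts P R roots = true) {g : G} (e : g * ι negOne * g⁻¹ = ι (sgn U)) : False := by
  have hP := perfGens_of_ok (mrep_sgn hU) hperf
  have hin := h.pull hP (g := g) (one_mem _) (by rw [e, mul_one])
  have hrange : ∀ p ∈ genSub (signLetters S), ∃ q : Co0, ι q = g⁻¹ * ι p * g := fun p hp => by
    have := hin p hp
    rw [← h.range] at this
    exact this
  have hm : ∀ m, inCode m = true → sgn m ∈ genSub (signLetters S) :=
    fun m hm => sgn_mem_signLetters hperf hm
  choose q hq using hrange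
  let ev : ℕ → Co0 := fun m => if hc : inCode m = true then q (sgn m) (hm m hc) else 1
  have hev : ∀ m, inCode m = true → ι (ev m) = g⁻¹ * ι (sgn m) * g := fun m hc => by
    simp only [ev, dif_pos hc]; exact hq _ _
  have hid : ∀ m, m < 2 ^ 24 → maskImage idTab m = m := fun m hm => by
    have := smul_ofMask_tab 1 m
    rw [one_smul, toTab_one] at this
    have hl := maskImage_lt 1 m
    rw [toTab_one] at hl
    rw [← toMask_ofMask hl, ← this, toMask_ofMask hm]
  have hS : ∀ s ∈ S, tabInM24 s = true ∧ compTab s s = idTab := fun s hs => by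
    have := horb
    simp only [orbitOK, Bool.and_eq_true, List.all_eq_true, beq_iff_eq] at this
    exact this.2 s hs
  refine no_embedding S U K hU hK horb ev (fun a b ha hb => h.inj ?_) (h.inj ?_) (fun e1 => ?_) ?_
  · rw [map_mul, hev a ha, hev b hb, hev _ (inCode_xor ha hb)]
    have h3 : sgn (a ^^^ b) = sgn a * sgn b := by
      refine (mrep_sgn (inCode_xor ha hb)).ext ?_
      have := (mrep_sgn ha).mul (mrep_sgn hb)
      rwa [hid b (inCode_lt hb), compTab_idTab_idTab] at this
    rw [h3, map_mul]; group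
  · rw [hev U hU, ← e]; group
  · have h1 := hev K hK
    rw [e1, map_one] at h1
    have h2 : ι (sgn K) = 1 := by
      calc ι (sgn K) = g * (g⁻¹ * ι (sgn K) * g) * g⁻¹ := by group
        _ = 1 := by rw [← h1]; group
    have h3 : sgn K = 1 := h.inj (h2.trans (map_one ι).symm)
    obtain ⟨x, e2, e3, -⟩ := mrep_sgn hK
    rw [h3] at e2
    have h4 : x.1 = 0 := congrArg Prod.fst (monomial_injective (e2.trans monomial_one.symm))
    rw [h4] at e3
    refine hK0 ?_
    rw [← e3]
    show toMask (support₂ (0 : GolayPt → ZMod 2)) = 0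
    rw [support₂_zero, ← ofMask_zero, toMask_ofMask (by norm_num)]
  · intro s hs
    have hp := mon_mem_signLetters hs
    refine ⟨q (mon (0, s)) hp, fun m hc => h.inj ?_⟩
    obtain ⟨σ, hσ, rfl⟩ := rep_of_tabInM24 (hS s hs).1
    have him : inCode (maskImage (toTab σ) m) = true := inCode_maskImage hσ hc
    rw [map_mul, map_mul, map_inv, hq, hev m hc, hev _ him]
    have hx : MRep (mon (0, toTab σ)) 0 (toTab σ) :=
      mrep_mon (x := (0, toTab σ)) (show inCode 0 = true by decide +kernel) (hS _ hs).1
    have hxx : mon (0, toTab σ) * mon (0, toTab σ) = 1 := by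
      refine MRep.ext (C := 0) (t := idTab) ?_ MRep.one
      have := hx.mul hx
      rwa [(hS _ hs).2, show maskImage (toTab σ) 0 = 0 by simp [maskImage], Nat.xor_zero] at this
    have hconj : mon (0, toTab σ) * sgn m * (mon (0, toTab σ))⁻¹ = sgn (maskImage (toTab σ) m) := by
      rw [inv_eq_of_mul_eq_one_right hxx]
      refine MRep.ext ?_ (mrep_sgn him)
      have := (hx.mul (mrep_sgn hc)).mul hx
      rwa [Nat.zero_xor, ← toTab_one, ← toTab_mul, mul_one, show maskImage (toTab σ) 0 = 0 by
        simp [maskImage], Nat.xor_zero, (hS _ hs).2, ← toTab_one] at this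
    rw [← hconj, map_mul, map_mul, map_inv]
    group

/-- A non-central involution of the subgroup is not conjugate to the central one. -/
theorem no_inner {a : Co0} (ha : a * a = 1) (h1 : a ≠ 1) (hz : a ≠ negOne) {g : G}
    (e : g * ι negOne * g⁻¹ = ι a) : False := by
  have move : ∀ {U : ℕ}, (∃ k : Co0, k * a * k⁻¹ = sgn U) →
      ∃ g' : G, g' * ι negOne * g'⁻¹ = ι (sgn U) := by
    rintro U ⟨k, hk⟩
    refine ⟨ι k * g, ?_⟩
    rw [← hk, map_mul, map_mul, map_inv, ← e]
    group
  obtain ⟨hO, hH, hD, hC, hT, -⟩ := base_words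
  have hF : inCode (Data.dodU ^^^ 16777215) = true := inCode_xor hD (by decide +kernel)
  rcases target_of_sq (Or.inl ha) with h' | h' | h' | h' | h' | ⟨k, hk⟩
  · exact h1 h'
  · exact hz h'
  · obtain ⟨g', e'⟩ := move h'
    exact h.no_sign hO hH (by decide +kernel) perf_checks.1 orbit_oct e'
  · obtain ⟨g', e'⟩ := move h'
    exact h.no_sign hH hO (by decide +kernel) perf_checks.2.1 orbit_hex e'
  · obtain ⟨g', e'⟩ := move h'
    exact h.no_sign hD hF (by decide +kernel) perf_checks.2.2.1 orbit_dod e'
  · have h2 : mon (Data.freeC, invFree) * mon (Data.freeC, invFree) = 1 := by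
      rw [← hk, show k * a * k⁻¹ * (k * a * k⁻¹) = k * (a * a) * k⁻¹ by group, ha]; group
    have hr := mrep_mon (x := (Data.freeC, invFree)) hC hT
    have h3 := hr.mul hr
    rw [h2] at h3
    obtain ⟨x, hx, h4, -⟩ := h3
    have h5 := monomial_injective (hx.trans monomial_one.symm)
    rw [h5] at h4
    have h6 : toMask (support₂ (0 : GolayPt → ZMod 2)) = 0 := by
      rw [support₂_zero, ← ofMask_zero, toMask_ofMask (by norm_num)]
    exact absurd (h6.symm.trans h4) (by decide +kernel)

theorem isolated : IsIsolated (ι negOne) := by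
  intro g hg
  by_contra hne
  obtain ⟨a, k, hk, e⟩ := h.decomp (g := g * ι negOne * g⁻¹) hg.eq.symm
  have hsq : (ι a * k) * (ι a * k) = 1 := by
    rw [← e, show g * ι negOne * g⁻¹ * (g * ι negOne * g⁻¹) = g * (ι negOne * ι negOne) * g⁻¹ by group,
      show ι negOne * ι negOne = 1 by rw [← pow_two, ← h.orderOf_z, pow_orderOf_eq_one]]
    group
  have hkk : k * k = (ι (a * a))⁻¹ := by
    refine (inv_eq_of_mul_eq_one_right ?_).symm
    rw [map_mul]
    calc ι a * ι a * (k * k) = ι a * (ι a * k) * k := by group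
      _ = ι a * (k * ι a) * k := by rw [h.commute_K hk]
      _ = (ι a * k) * (ι a * k) := by group
      _ = 1 := hsq
  have haa : a * a = 1 ∨ a * a = negOne := by
    have hmem : ι (a * a) ∈ Subgroup.centralizer (A : Set G) := by
      rw [← inv_mem_iff, ← hkk]; exact mul_mem hk hk
    have hc : a * a ∈ Subgroup.center Co0 := Subgroup.mem_center_iff.2 fun x => h.inj (by
      rw [map_mul ι x, map_mul ι _ x]; exact hmem (ι x) (h.mem_A x))
    exact center_co0_cases hc
  have hkey : ∀ b : Co0, b * b = 1 → g * ι negOne * g⁻¹ ≠ ι b := by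
    intro b hb eb
    by_cases hb1 : b = 1
    · subst hb1
      rw [map_one, conj_eq_one_iff] at eb
      have h0 := h.orderOf_z
      rw [eb, orderOf_one] at h0
      norm_num at h0
    · by_cases hbz : b = negOne
      · exact hne (by rw [eb, hbz])
      · exact h.no_inner hb hb1 hbz eb
  rcases haa with ha | ha
  · rw [ha, map_one, inv_one] at hkk
    rcases h.eq_z hk hkk with rfl | rfl
    · exact hkey a ha (by rw [e, mul_one])
    · refine hkey (a * negOne) ?_ (by rw [e, map_mul])
      have : a * negOne = negOne * a := h.inj (by rw [map_mul, map_mul, ← h.commute_K h.z_mem_K])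
      calc a * negOne * (a * negOne) = a * negOne * (negOne * a) := by rw [this]
        _ = a * (negOne * negOne) * a := by group
        _ = 1 := by
          rw [show negOne * negOne = (1 : Co0) from co0_ext fun i => by
            rw [mul_smul, negOne_smul, negOne_smul, neg_neg, one_smul], mul_one, ha]
  · have hneg2 : negOne * negOne = (1 : Co0) :=
      co0_ext fun i => by rw [mul_smul, negOne_smul, negOne_smul, neg_neg, one_smul]
    rcases target_of_sq (Or.inr ha) with h' | h' | ⟨j, hj⟩ | ⟨j, hj⟩ | ⟨j, hj⟩ | ⟨j, hj⟩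
    · subst h'
      rw [one_mul] at ha
      have h0 := h.orderOf_z
      rw [← ha, map_one, orderOf_one] at h0
      norm_num at h0
    · subst h'
      rw [hneg2] at ha
      have h0 := h.orderOf_z
      rw [← ha, map_one, orderOf_one] at h0
      norm_num at h0
    iterate 3
      exfalso
      have hone : ∀ U, inCode U = true → sgn U * sgn U = 1 := fun U hU => by
        refine MRep.ext (C := 0) (t := idTab) ?_ MRep.one
        have := (mrep_sgn hU).mul (mrep_sgn hU)
        have hid : maskImage idTab U = U := by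
          have := smul_ofMask_tab 1 U
          rw [one_smul, toTab_one] at this
          have hl := maskImage_lt 1 U
          rw [toTab_one] at hl
          rw [← toMask_ofMask hl, ← this, toMask_ofMask (inCode_lt hU)]
        rwa [hid, Nat.xor_self, compTab_idTab_idTab] at this
      have h2 : j * a * j⁻¹ * (j * a * j⁻¹) = 1 := by
        rw [hj]
        refine hone _ ?_
        first
          | exact base_words.1
          | exact base_words.2.1
          | exact base_words.2.2.1
      rw [show j * a * j⁻¹ * (j * a * j⁻¹) = j * (a * a) * j⁻¹ by group, ha,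
        negOne_conj] at h2
      have h0 := h.orderOf_z
      rw [h2, map_one, orderOf_one] at h0
      norm_num at h0
    have hr := mrep_mon (x := (Data.freeC, invFree)) base_words.2.2.2.1 base_words.2.2.2.2.1
    have hP := perfGens_of_ok hr perf_checks.2.2.2.1
    have hj' : ι (mon (Data.freeC, invFree)) * k = ι j * g * ι negOne * (ι j * g)⁻¹ := by
      rw [← hj, map_mul, map_mul, map_inv]
      calc ι j * ι a * (ι j)⁻¹ * k = ι j * ι a * ((ι j)⁻¹ * k) := by group
        _ = ι j * ι a * (k * (ι j)⁻¹) := by rw [← map_inv, h.commute_K hk]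
        _ = ι j * (ι a * k) * (ι j)⁻¹ := by group
        _ = ι j * g * ι negOne * (ι j * g)⁻¹ := by rw [← e]; group
    set u := ι j * g
    have hin := h.pull hP hk hj'.symm negOne negOne_mem_four
    rw [← h.range] at hin
    obtain ⟨b, hb⟩ := hin
    have hu : u⁻¹ * ι negOne * u⁻¹⁻¹ = ι b := by rw [hb, inv_inv]
    have hbb : b * b = 1 := h.inj (by
      rw [map_mul, hb, map_one,
        show u⁻¹ * ι negOne * u * (u⁻¹ * ι negOne * u) = u⁻¹ * (ι negOne * ι negOne) * u by group,
        ← map_mul, hneg2, map_one]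
      group)
    by_cases hb1 : b = 1
    · subst hb1
      rw [map_one] at hu
      have h0 := h.orderOf_z
      rw [conj_eq_one_iff.1 hu, orderOf_one] at h0
      norm_num at h0
    · by_cases hbz : b = negOne
      · subst hbz
        have hfix : u * ι negOne * u⁻¹ = ι negOne :=
          calc u * ι negOne * u⁻¹ = u * (u⁻¹ * ι negOne * u) * u⁻¹ := by rw [← hb]
            _ = ι negOne := by group
        rw [← hj'] at hfix
        have hkA : k ∈ A := by
          rw [show k = (ι (mon (Data.freeC, invFree)))⁻¹ * ι negOne by rw [← hfix]; group]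
          exact mul_mem (inv_mem (h.mem_A _)) (h.mem_A _)
        have hmc : mon (Data.freeC, invFree) ∈ Subgroup.center Co0 :=
          Subgroup.mem_center_iff.2 fun x => h.inj (by
            rw [map_mul, map_mul,
              show ι (mon (Data.freeC, invFree)) = ι negOne * k⁻¹ by rw [← hfix]; group]
            calc ι x * (ι negOne * k⁻¹) = (ι x * ι negOne) * k⁻¹ := by group
              _ = (ι negOne * ι x) * k⁻¹ := by rw [h.commute_K h.z_mem_K]
              _ = ι negOne * (ι x * k⁻¹) := by group
              _ = ι negOne * (k⁻¹ * ι x) := by rw [h.commute_K (inv_mem hk)]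
              _ = ι negOne * k⁻¹ * ι x := by group)
        rcases center_co0_cases hmc with h6 | h6
        · have h7 := hr.mul hr
          rw [h6, one_mul] at h7
          obtain ⟨x, hx, h8, -⟩ := h7
          rw [monomial_injective (hx.trans monomial_one.symm)] at h8
          have h9 : toMask (support₂ (0 : GolayPt → ZMod 2)) = 0 := by
            rw [support₂_zero, ← ofMask_zero, toMask_ofMask (by norm_num)]
          exact absurd (h9.symm.trans h8) (by decide +kernel)
        · have h7 := hr.mul hr
          rw [h6, hneg2] at h7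
          obtain ⟨x, hx, h8, -⟩ := h7
          rw [monomial_injective (hx.trans monomial_one.symm)] at h8
          have h9 : toMask (support₂ (0 : GolayPt → ZMod 2)) = 0 := by
            rw [support₂_zero, ← ofMask_zero, toMask_ofMask (by norm_num)]
          exact absurd (h9.symm.trans h8) (by decide +kernel)
      · exact h.no_inner hbb hb1 hbz hu

end Setup

end CfsgLib.StdCo0
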