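import Cfsg.Agent.StdCo0.Mono
import Cfsg.Agent.Leech.Co1Simple
import Cfsg.Agent.Mathieu.Small
import Cfsg.Agent.Mathieu.Classes
import Cfsg.Agent.StdCo0.Data

/-!
The witnesses of conjugation into sign changes, checked.
-/

set_option autoImplicit false
set_option maxRecDepth 20000

open scoped Pointwise

namespace CfsgLib.StdCo0

open Cfsg CfsgLib.Leech CfsgLib.Mathieu CfsgLib.Golay

/-- The evaluation of a monomial involution on a coordinate vector. -/
def monFun (C : ℕ) (t : List ℕ) (x : GolayPt → ℤ) : GolayPt → ℤ := fun i =>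
  if C.testBit (p2i i) then -x (i2p (app t (p2i i))) else x (i2p (app t (p2i i)))

/-- The permutation of a case. -/
def caseTab : ℕ → List ℕ
  | 0 => invFree
  | _ => invOctad

/-- One witness: after a permutation with signs and the sextet map, a sign change appears. -/
def witnessOK (w : ℕ × ℕ × ℕ × List ℕ × List ℕ × ℕ) : Prop :=
  inCode w.2.1 = true ∧ inCode w.2.2.1 = true ∧ tabInM24 w.2.2.2.1 = true ∧
  tabInM24 w.2.2.2.2.1 = true ∧ inCode (maskImage w.2.2.2.2.1 w.2.2.1) = true ∧
  inCode w.2.2.2.2.2 = true ∧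
  (let x : ℕ × List ℕ := (w.2.2.1, w.2.2.2.1)
   let y : ℕ × List ℕ := (maskImage w.2.2.2.2.1 w.2.2.1, w.2.2.2.2.1)
   let r := mprod [x, (w.2.1, caseTab w.1), y]
   mprod [x, y] = (0, idTab) ∧ compTab r.2 r.2 = idTab ∧
     ∀ k, xiFun (monFun r.1 r.2 (xiFun (axisVec k : GolayPt → ℤ))) =
       monFun w.2.2.2.2.2 idTab (axisVec k : GolayPt → ℤ))

instance decidableWitnessOK (w : ℕ × ℕ × ℕ × List ℕ × List ℕ × ℕ) : Decidable (witnessOK w) := by
  unfold witnessOK; infer_instance
set_option maxHeartbeats 0 in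
theorem witness_checks : ∀ w ∈ Data.witnesses, witnessOK w := by
  decide +kernel

end CfsgLib.StdCo0
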