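import Cfsg.Agent.StdCo0.Mono
import Cfsg.Agent.Leech.Co1Simple
import Cfsg.Agent.Mathieu.Small
import Cfsg.Agent.Mathieu.Classes
import Cfsg.Agent.StdCo0.Data
import Cfsg.Agent.StdCo0.Witness

/-!
Conjugation of the elements of order two, and of those squaring to the central involution,
into a short list of monomial elements.
-/

set_option autoImplicit false
set_option maxRecDepth 20000

open scoped Pointwise

namespace CfsgLib.StdCo0

open Cfsg CfsgLib.Leech CfsgLib.Mathieu CfsgLib.Golay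

theorem odd_index_frameStab : ¬ 2 ∣ frameStab.index := by
  haveI : Finite Co0 := finite_co0
  have h1 := Subgroup.card_mul_index frameStab
  rw [card_frameStab, card_co0] at h1
  omega

theorem exists_mrep_of_frame {g : Co0} (h : g ∈ frameStab) :
    ∃ C, ∃ σ ∈ M24, MRep g C (toTab σ) ∧ inCode C = true := by
  obtain ⟨⟨c, σ⟩, rfl⟩ := frame_decomp h
  exact ⟨_, σ.1, σ.2, ⟨(c, σ), rfl, rfl, rfl⟩, mem_golayCode_iff.1 c.2⟩

/-- A 2-element is conjugate to a monomial one. -/
theorem exists_conj_frame {g : Co0} {n : ℕ} (h : g ^ 2 ^ n = 1) :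
    ∃ k : Co0, k * g * k⁻¹ ∈ frameStab := by
  haveI : Finite Co0 := finite_co0
  haveI : Fact (Nat.Prime 2) := ⟨Nat.prime_two⟩
  let S0 : Sylow 2 frameStab := default
  have hS0 : ¬ 2 ∣ ((S0 : Subgroup frameStab).map frameStab.subtype).index := by
    rw [Subgroup.index_map, Subgroup.ker_subtype, sup_bot_eq, Subgroup.range_subtype]
    exact fun hd => (Nat.prime_two.dvd_mul.1 hd).elim S0.not_dvd_index odd_index_frameStab
  have hp : IsPGroup 2 ((S0 : Subgroup frameStab).map frameStab.subtype) := S0.2.map _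
  let S : Sylow 2 Co0 := hp.toSylow hS0
  have hz : IsPGroup 2 (Subgroup.zpowers g) := by
    obtain ⟨j, -, hj⟩ := (Nat.dvd_prime_pow Nat.prime_two).1 (orderOf_dvd_of_pow_eq_one h)
    exact IsPGroup.of_card (n := j) (by rw [Nat.card_zpowers, hj])
  obtain ⟨R, hR⟩ := hz.exists_le_sylow
  obtain ⟨k, hk⟩ := MulAction.exists_smul_eq Co0 R S
  refine ⟨k, ?_⟩
  have h4 : MulAut.conj k g ∈ (S : Subgroup Co0) := by
    rw [← hk, Sylow.coe_subgroup_smul]
    exact Subgroup.smul_mem_pointwise_smul _ _ _ (hR (Subgroup.mem_zpowers g))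
  obtain ⟨q, -, hq⟩ := h4
  rw [MulAut.conj_apply] at hq
  rw [← hq]
  exact q.2

theorem mrep_negOne : MRep negOne 16777215 idTab := by
  refine ⟨(⟨1, one_mem_code⟩, 1), ?_, ?_, toTab_one⟩
  · rw [negOne, monomial, map_one, mul_one]
  · show toMask (support₂ (1 : GolayPt → ZMod 2)) = _
    rw [support₂_one]
    exact ofMask_full ▸ toMask_ofMask (by norm_num)

theorem mrep_permHom (σ : M24) : MRep (permHom σ) 0 (toTab σ.1) := by
  refine ⟨(0, σ), ?_, ?_, rfl⟩
  · show signs 0 _ * permHom σ = _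
    rw [signs_zero, one_mul]
  · show toMask (support₂ (0 : GolayPt → ZMod 2)) = 0
    rw [support₂_zero, ← ofMask_zero, toMask_ofMask (by norm_num)]

/-- Conjugating by a permutation. -/
theorem MRep.conj_perm {g : Co0} {C : ℕ} {t : List ℕ} (h : MRep g C t) {σ : M24}
    {τ : Equiv.Perm GolayPt} (ht : toTab τ = t) :
    MRep (permHom σ * g * (permHom σ)⁻¹) (maskImage (toTab σ.1) C) (toTab (σ.1 * τ * σ.1⁻¹)) := by
  have h1 := ((mrep_permHom σ).mul h).mul (mrep_permHom σ⁻¹)
  rw [← map_inv]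
  have h0 : ∀ s : List ℕ, maskImage s 0 = 0 := fun s => by simp [maskImage]
  rw [h0, Nat.xor_zero, Nat.zero_xor, ← ht, ← toTab_mul, ← toTab_mul] at h1
  exact h1

/-- A permutation table moves a sign change to the image of its mask. -/
theorem sgn_conj {U V : ℕ} (hU : inCode U = true) (hV : inCode V = true) {σ : Equiv.Perm GolayPt}
    (hσ : σ ∈ M24) (e : σ • ofMask U = ofMask V) : ∃ k : Co0, k * sgn U * k⁻¹ = sgn V := by
  refine ⟨permHom ⟨σ, hσ⟩, ?_⟩
  have h1 := (mrep_sgn hU).conj_perm (σ := ⟨σ, hσ⟩) (τ := 1) toTab_one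
  have e' : maskImage (toTab σ) U = V := by
    rw [smul_ofMask_tab] at e
    rw [← toMask_ofMask (maskImage_lt σ U), e, toMask_ofMask (inCode_lt hV)]
  rw [mul_one, mul_inv_cancel, toTab_one, e'] at h1
  exact h1.ext (mrep_sgn hV)


theorem MRep.apply {g : Co0} {C : ℕ} {t : List ℕ} (h : MRep g C t) (ht : compTab t t = idTab)
    (v : leechLattice) :
    ((g • v : leechLattice) : GolayPt → ℤ) = monFun C t (v : GolayPt → ℤ) := by
  obtain ⟨⟨c, σ⟩, rfl, rfl, rfl⟩ := h
  have hs : σ.1 * σ.1 = 1 := toTab_injective (by rw [toTab_mul, ht, toTab_one])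
  have hinv : σ.1.symm = σ.1 := by
    rw [← Equiv.Perm.inv_def]; exact inv_eq_of_mul_eq_one_right hs
  funext i
  rw [monomial_apply, monFun, app_toTab', i2p_p2i, hinv]
  have hb : (toMask (support₂ c.1)).testBit (p2i i) = decide (c.1 i ≠ 0) := by
    have key : ∀ p, (idx p : ℕ) = p2i p := by decide
    rw [← key, testBit_toMask, pt_idx]
    simp [support₂]
  rw [hb]
  by_cases hc : c.1 i = 0 <;> simp [hc]

/-- The outcome of a conjugation. -/
def Target (g : Co0) : Prop :=
  g = 1 ∨ g = negOne ∨ (∃ k : Co0, k * g * k⁻¹ = sgn Data.octU) ∨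
    (∃ k : Co0, k * g * k⁻¹ = sgn Data.hexU) ∨ (∃ k : Co0, k * g * k⁻¹ = sgn Data.dodU) ∨
    ∃ k : Co0, k * g * k⁻¹ = mon (Data.freeC, invFree)

theorem negOne_conj (k : Co0) : k * negOne * k⁻¹ = negOne := by
  refine co0_ext fun i => ?_
  rw [mul_smul, mul_smul, negOne_smul, negOne_smul, co0_map_neg, smul_inv_smul]

theorem Target.of_conj {g : Co0} {k : Co0} (h : Target (k * g * k⁻¹)) : Target g := by
  have e : ∀ j : Co0, j * (k * g * k⁻¹) * j⁻¹ = j * k * g * (j * k)⁻¹ := fun j => by group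
  rcases h with h | h | ⟨j, h⟩ | ⟨j, h⟩ | ⟨j, h⟩ | ⟨j, h⟩
  · exact Or.inl (by simpa using h)
  · refine Or.inr (Or.inl ?_)
    rw [show g = k⁻¹ * (k * g * k⁻¹) * (k⁻¹)⁻¹ by group, h, negOne_conj]
  · exact Or.inr (Or.inr (Or.inl ⟨j * k, by rw [← e, h]⟩))
  · exact Or.inr (Or.inr (Or.inr (Or.inl ⟨j * k, by rw [← e, h]⟩)))
  · exact Or.inr (Or.inr (Or.inr (Or.inr (Or.inl ⟨j * k, by rw [← e, h]⟩))))
  · exact Or.inr (Or.inr (Or.inr (Or.inr (Or.inr ⟨j * k, by rw [← e, h]⟩))))

theorem base_words : inCode Data.octU = true ∧ inCode Data.hexU = true ∧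
    inCode Data.dodU = true ∧ inCode Data.freeC = true ∧ tabInM24 invFree = true ∧
    pop Data.octU = 8 ∧ pop (Data.hexU ^^^ 16777215) = 8 ∧ pop Data.dodU = 12 ∧
    inCode (Data.hexU ^^^ 16777215) = true := by
  decide +kernel

theorem code_weights :
    allSpan (fun w => w == 0 || w == 16777215 || pop w == 8 || pop w == 12 ||
      (pop (w ^^^ 16777215) == 8 && inCode (w ^^^ 16777215))) basisMasks 0 = true := by
  decide +kernel

theorem mem_octads_of_mask {C : ℕ} (hC : inCode C = true) (h : pop C = 8) :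
    ofMask C ∈ octads := by
  rw [mem_octads_iff_mask, toMask_ofMask (inCode_lt hC)]; exact ⟨hC, h⟩

theorem mem_dodecads_of_mask {C : ℕ} (hC : inCode C = true) (h : pop C = 12) :
    ofMask C ∈ dodecads := by
  rw [mem_dodecads_iff_mask, toMask_ofMask (inCode_lt hC)]; exact ⟨hC, h⟩

theorem target_sgn {C : ℕ} (hC : inCode C = true) : Target (sgn C) := by
  obtain ⟨hO, hH, hD, -, -, pO, pH, pD, hHc⟩ := base_words
  have hw := of_allSpan code_weights hC
  simp only [Bool.or_eq_true, Bool.and_eq_true, beq_iff_eq] at hw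
  have oct : ∀ {A B : ℕ}, inCode A = true → inCode B = true → pop A = 8 → pop B = 8 →
      ∃ σ ∈ M24, σ • ofMask A = ofMask B := fun {A B} hA hB a b =>
    exists_map_octad (mem_octads_of_mask hA a) (mem_octads_of_mask hB b)
  rcases hw with (((rfl | rfl) | h8) | h12) | ⟨h16, hc16⟩
  · exact Or.inl ((mrep_sgn hC).ext MRep.one)
  · exact Or.inr (Or.inl ((mrep_sgn hC).ext mrep_negOne))
  · obtain ⟨σ, hσ, e⟩ := oct hC hO h8 pO
    exact Or.inr (Or.inr (Or.inl (sgn_conj hC hO hσ e)))
  · obtain ⟨σ, hσ, e⟩ := exists_map_dodecad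
      (mem_dodecads_of_mask hC h12) (mem_dodecads_of_mask hD pD)
    exact Or.inr (Or.inr (Or.inr (Or.inr (Or.inl (sgn_conj hC hD hσ e)))))
  · obtain ⟨σ, hσ, e⟩ := oct hc16 hHc h16 pH
    refine Or.inr (Or.inr (Or.inr (Or.inl (sgn_conj hC hH hσ ?_))))
    have hc : ∀ w : ℕ, ofMask (w ^^^ 16777215) = (ofMask w)ᶜ := fun w => by
      rw [ofMask_xor, ofMask_full]; ext p; simp [Finset.mem_symmDiff]
    rw [hc, hc, Finset.compl_eq_univ_sdiff, Finset.smul_finset_sdiff,
      Finset.smul_finset_univ, ← Finset.compl_eq_univ_sdiff] at e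
    exact compl_injective e


/-- The representatives of a case. -/
def caseReps : ℕ → List ℕ
  | 0 => Data.invFreeReps
  | _ => Data.invOctadReps

/-- The shifts of a case. -/
def caseShift : ℕ → List ℕ
  | 0 => Data.invFreeShift
  | _ => Data.invOctadShift

/-- Reduction of the masks to the representatives. -/
def reduceOK (b : ℕ) : Bool :=
  let P := pk (caseTab b)
  allSpan (fun C => !(C ^^^ maskImageF P C == 0 || C ^^^ maskImageF P C == 16777215) ||
    (caseShift b).any fun D => inCode D && (caseReps b).contains (C ^^^ D ^^^ maskImageF P D))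
    basisMasks 0

/-- Each representative is central, special, or has a witness. -/
def repsOK (b : ℕ) : Bool :=
  (caseReps b).all fun r => (b == 0 && r == Data.freeC) ||
    Data.witnesses.any fun w => w.1 == b && w.2.1 == r

theorem conj_checks :
    ((List.range 2).all fun b => reduceOK b && repsOK b && tabInM24 (caseTab b) &&
      compTab (caseTab b) (caseTab b) == idTab) = true := by
  decide +kernel

theorem compTab_idTab_idTab : compTab idTab idTab = idTab := by decide +kernel

theorem target_witness {g : Co0} {w : ℕ × ℕ × ℕ × List ℕ × List ℕ × ℕ} (hw : witnessOK w)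
    (hg : MRep g w.2.1 (caseTab w.1)) : Target g := by
  obtain ⟨-, hD, hm, hm', hD', hU, h⟩ := hw
  obtain ⟨hinv, hsq, hk⟩ := h
  set x : ℕ × List ℕ := (w.2.2.1, w.2.2.2.1)
  set y : ℕ × List ℕ := (maskImage w.2.2.2.2.1 w.2.2.1, w.2.2.2.2.1)
  have hx : MRep (mon x) x.1 x.2 := mrep_mon hD hm
  have hy : MRep (mon y) y.1 y.2 := mrep_mon hD' hm'
  have hxy : (mon x)⁻¹ = mon y := by
    refine inv_eq_of_mul_eq_one_right (MRep.ext (C := 0) (t := idTab) ?_ MRep.one)
    have := MRep.prod (gs := [mon x, mon y]) (xs := [x, y])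
      (List.Forall₂.cons hx (List.Forall₂.cons hy List.Forall₂.nil))
    simpa [hinv] using this
  have hr := MRep.prod (gs := [mon x, g, mon y]) (xs := [x, (w.2.1, caseTab w.1), y])
    (List.Forall₂.cons hx (List.Forall₂.cons hg (List.Forall₂.cons hy List.Forall₂.nil)))
  refine Target.of_conj (k := xi * mon x) ?_
  have e : xi * mon x * g * (xi * mon x)⁻¹ = sgn w.2.2.2.2.2 := by
    have hxi : xi⁻¹ = xi := inv_eq_of_mul_eq_one_right
      (co0_ext fun i => Subtype.ext (by
        rw [mul_smul, xi_apply, xi_apply, one_smul, xiFun_xiFun (axisVec i).2]))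
    rw [mul_inv_rev, hxy, hxi,
      show xi * mon x * g * (mon y * xi) = xi * [mon x, g, mon y].prod * xi by
        simp [mul_assoc]]
    refine co0_ext fun i => Subtype.ext ?_
    rw [mul_smul, mul_smul, xi_apply, hr.apply hsq, xi_apply,
      (mrep_sgn hU).apply compTab_idTab_idTab]
    exact hk i
  rw [e]
  exact target_sgn hU

theorem target_case {g : Co0} {C b : ℕ} (hC : inCode C = true) (hb : b < 2)
    (hg : MRep g C (caseTab b)) (hsq : g * g = 1 ∨ g * g = negOne) : Target g := by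
  obtain ⟨σ, hσ, eσ⟩ := rep_of_tabInM24 (t := caseTab b) (by
    have := List.all_eq_true.1 conj_checks b (List.mem_range.2 hb)
    simp only [Bool.and_eq_true] at this
    exact this.1.2)
  have hall := List.all_eq_true.1 conj_checks b (List.mem_range.2 hb)
  simp only [Bool.and_eq_true, beq_iff_eq] at hall
  obtain ⟨⟨⟨hred, hreps⟩, -⟩, hinvol⟩ := hall
  have him : ∀ m, maskImageF (pk (caseTab b)) m = maskImage (caseTab b) m := fun m => by
    rw [← eσ, maskImageF_eq]
  have hCC : C ^^^ maskImage (caseTab b) C = 0 ∨ C ^^^ maskImage (caseTab b) C = 16777215 := by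
    have h2 := hg.mul hg
    rw [hinvol] at h2
    rcases hsq with e | e
    · obtain ⟨⟨c, τ⟩, e1, e2, -⟩ := h2
      left
      have := (monomial_injective (e1.trans (e.trans monomial_one.symm)))
      rw [← e2, show c = 0 from congrArg Prod.fst this]
      show toMask (support₂ (0 : GolayPt → ZMod 2)) = 0
      rw [support₂_zero, ← ofMask_zero, toMask_ofMask (by norm_num)]
    · right
      obtain ⟨⟨c, τ⟩, e1, e2, -⟩ := h2
      obtain ⟨⟨d, υ⟩, f1, f2, -⟩ := mrep_negOne
      have := monomial_injective (e1.trans (e.trans f1.symm))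
      rw [← e2, ← f2, show c = d from congrArg Prod.fst this]
  have hD := of_allSpan hred hC
  simp only [him, Bool.or_eq_true, Bool.not_eq_true', List.any_eq_true, Bool.and_eq_true,
    Bool.or_eq_false_iff, beq_eq_false_iff_ne, List.contains_eq_mem, decide_eq_true_eq] at hD
  rcases hD with hne | ⟨D, -, hDc, hr⟩
  · exact absurd hCC (by tauto)
  set r := C ^^^ D ^^^ maskImage (caseTab b) D with hrdef
  have hs := mrep_sgn hDc
  have h3 := (hs.mul hg).mul hs
  have hid : ∀ m, m < 2 ^ 24 → maskImage idTab m = m := fun m hm => by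
    have := smul_ofMask_tab 1 m
    rw [one_smul, toTab_one] at this
    have hl := maskImage_lt 1 m
    rw [toTab_one] at hl
    rw [← toMask_ofMask hl, ← this, toMask_ofMask hm]
  have hidc : compTab idTab (caseTab b) = caseTab b := by
    rw [← toTab_one, ← eσ, ← toTab_mul, one_mul]
  have hcid : compTab (caseTab b) idTab = caseTab b := by
    rw [← toTab_one, ← eσ, ← toTab_mul, mul_one]
  rw [hid C (inCode_lt hC), hidc, hcid,
    show D ^^^ C ^^^ maskImage (caseTab b) D = r by rw [hrdef, Nat.xor_comm D C]] at h3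
  have hsinv : (sgn D)⁻¹ = sgn D := by
    refine inv_eq_of_mul_eq_one_right (MRep.ext (C := 0) (t := idTab) ?_ MRep.one)
    have := hs.mul hs
    rwa [hid D (inCode_lt hDc), Nat.xor_self, compTab_idTab_idTab] at this
  refine Target.of_conj (k := sgn D) ?_
  rw [hsinv]
  have hrep := List.all_eq_true.1 hreps r hr
  simp only [Bool.or_eq_true, Bool.and_eq_true, beq_iff_eq, List.any_eq_true] at hrep
  rcases hrep with ⟨rfl, hrC⟩ | ⟨w, hw, hwb, hwr⟩
  · refine Or.inr (Or.inr (Or.inr (Or.inr (Or.inr ⟨1, ?_⟩))))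
    rw [one_mul, inv_one, mul_one]
    rw [hrC] at h3
    exact h3.ext (mrep_mon base_words.2.2.2.1 base_words.2.2.2.2.1)
  · refine target_witness (witness_checks w hw) ?_
    rw [hwb, hwr]
    exact h3

/-- An element squaring to `1` or to `-1` is central or conjugate to one of four elements. -/
theorem target_of_sq {g : Co0} (hsq : g * g = 1 ∨ g * g = negOne) : Target g := by
  have h4 : g ^ 2 ^ 2 = 1 := by
    rw [show (2 : ℕ) ^ 2 = 2 * 2 by norm_num, pow_mul, pow_two g]
    rcases hsq with e | e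
    · rw [e, one_pow]
    · rw [e, pow_two]
      exact co0_ext fun i => by rw [mul_smul, negOne_smul, negOne_smul, neg_neg, one_smul]
  obtain ⟨k, hk⟩ := exists_conj_frame h4
  refine Target.of_conj (k := k) ?_
  set a := k * g * k⁻¹ with hadef
  have hsqa : a * a = 1 ∨ a * a = negOne := by
    rcases hsq with e | e
    · left; rw [hadef, show k * g * k⁻¹ * (k * g * k⁻¹) = k * (g * g) * k⁻¹ by group, e]; group
    · right; rw [hadef, show k * g * k⁻¹ * (k * g * k⁻¹) = k * (g * g) * k⁻¹ by group, e,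
        negOne_conj]
  clear_value a
  obtain ⟨C, σ, hσ, hrep, hC⟩ := exists_mrep_of_frame hk
  have hσ2 : σ * σ = 1 := by
    obtain ⟨⟨c, τ⟩, e1, -, e2⟩ := hrep.mul hrep
    refine toTab_injective ?_
    rw [toTab_mul, ← e2]
    congr 1
    rcases hsqa with e | e
    · exact congrArg (fun x => (x : M24).1) (congrArg Prod.snd
        (monomial_injective (e1.trans (e.trans monomial_one.symm))))
    · obtain ⟨⟨d, υ⟩, f1, -, f2⟩ := mrep_negOne
      rw [show τ = υ from congrArg Prod.snd (monomial_injective (e1.trans (e.trans f1.symm)))]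
      exact toTab_injective (f2.trans toTab_one.symm)
  by_cases h1 : σ = 1
  · subst h1
    rw [toTab_one] at hrep
    rw [hrep.ext (mrep_sgn hC)]
    exact target_sgn hC
  have ho : orderOf σ = 2 := orderOf_eq_prime (by rw [pow_two, hσ2]) h1
  have key : ∀ b < 2, (∃ m ∈ M24, toTab (m * σ * m⁻¹) = caseTab b) → Target a := by
    rintro b hb ⟨m, hm, e⟩
    refine Target.of_conj (k := permHom ⟨m, hm⟩) ?_
    have h2 := hrep.conj_perm (σ := ⟨m, hm⟩) (τ := σ) rfl
    rw [e] at h2
    refine target_case ?_ hb h2 ?_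
    · obtain ⟨x, -, e2, -⟩ := h2
      rw [← e2]; exact mem_golayCode_iff.1 x.1.2
    · set q := permHom ⟨m, hm⟩
      rcases hsqa with f | f
      · left; rw [show q * a * q⁻¹ * (q * a * q⁻¹) = q * (a * a) * q⁻¹ by group, f]; group
      · right; rw [show q * a * q⁻¹ * (q * a * q⁻¹) = q * (a * a) * q⁻¹ by group, f, negOne_conj]
  rcases exists_conj_involution hσ ho with ⟨-, h⟩ | ⟨-, h⟩
  · exact key 0 (by norm_num) h
  · exact key 1 (by norm_num) h

end CfsgLib.StdCo0
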