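import Cfsg.Agent.Leech.Order
import Cfsg.Agent.Mathieu.OutSmall

/-!
Monomial automorphisms of the lattice recorded by a mask and a table.
-/

set_option autoImplicit false

open scoped Pointwise symmDiff

namespace CfsgLib.StdCo0

open Cfsg CfsgLib.Leech CfsgLib.Mathieu CfsgLib.Golay

/-- The monomial element `g` has sign mask `C` and table `t`. -/
def MRep (g : Co0) (C : ℕ) (t : List ℕ) : Prop :=
  ∃ x : golayCode × M24, monomial x = g ∧ toMask (support₂ x.1.1) = C ∧ toTab x.2.1 = t

theorem MRep.ext {g g' : Co0} {C : ℕ} {t : List ℕ} (h : MRep g C t) (h' : MRep g' C t) :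
    g = g' := by
  obtain ⟨⟨c, σ⟩, rfl, hc, hs⟩ := h
  obtain ⟨⟨d, τ⟩, rfl, hd, ht⟩ := h'
  have e1 : c = d := Subtype.ext (by
    rw [← wordOf_support₂ c.1, ← wordOf_support₂ d.1, toMask_injective (hc.trans hd.symm)])
  have e2 : σ = τ := Subtype.ext (toTab_injective (hs.trans ht.symm))
  rw [e1, e2]

theorem permHom_mul_signs (σ : M24) (c d : golayCode) (hd : ∀ p, d.1 p = c.1 (σ.1.symm p)) :
    permHom σ * signs c.1 c.2 = signs d.1 d.2 * permHom σ := by
  refine co0_ext fun i => Subtype.ext (funext fun k => ?_)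
  simp only [mul_smul, permHom_apply, signs_apply, hd]

theorem signs_mul (c d : golayCode) :
    signs c.1 c.2 * signs d.1 d.2 = signs (c + d).1 (c + d).2 := by
  have h01 : ∀ x : ZMod 2, x = 0 ∨ x = 1 := by decide
  refine co0_ext fun i => Subtype.ext (funext fun k => ?_)
  simp only [mul_smul, signs_apply, Submodule.coe_add, Pi.add_apply]
  rcases h01 (c.1 k) with a | a <;> rcases h01 (d.1 k) with b | b <;>
    simp [a, b, show (1 : ZMod 2) + 1 = 0 from rfl]

theorem smul_eq_ofMask {σ : Equiv.Perm GolayPt} {w : GolayPt → ZMod 2} :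
    support₂ (fun p => w (σ.symm p)) = σ • support₂ w := by
  ext p
  rw [← Finset.inv_smul_mem_iff]
  simp [support₂, Equiv.Perm.inv_def]

theorem maskImage_lt (g : Equiv.Perm GolayPt) (m : ℕ) : maskImage (toTab g) m < 2 ^ 24 := by
  unfold maskImage
  induction (List.range 24).filter fun i => m.testBit i with
  | nil => simp
  | cons a L ih =>
    rw [List.foldr_cons]
    refine Nat.or_lt_two_pow (Nat.pow_lt_pow_right (by norm_num) ?_) ih
    by_cases ha : a < 24
    · exact (app_toTab g a ha).symm ▸ p2i_lt _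
    · simp [app, toTab, List.getD_eq_getElem?_getD, ha]

theorem MRep.mul {g g' : Co0} {C C' : ℕ} {t t' : List ℕ} (h : MRep g C t) (h' : MRep g' C' t') :
    MRep (g * g') (C ^^^ maskImage t C') (compTab t t') := by
  obtain ⟨⟨c, σ⟩, rfl, hc, hs⟩ := h
  obtain ⟨⟨d, τ⟩, rfl, hd, ht⟩ := h'
  subst hs ht hd hc
  let e : golayCode := ⟨fun p => d.1 (σ.1.symm p), M24_isCode σ.2 d.2⟩
  refine ⟨(c + e, σ * τ), ?_, ?_, ?_⟩
  · show signs (c + e).1 (c + e).2 * permHom (σ * τ) = _
    rw [← signs_mul, map_mul]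
    simp only [monomial, mul_assoc]
    congr 1
    rw [← mul_assoc, ← mul_assoc, permHom_mul_signs σ d e fun p => rfl]
  · show toMask (support₂ (c.1 + e.1)) = _
    rw [support₂_add, toMask_symmDiff, smul_eq_ofMask,
      ← ofMask_toMask (support₂ d.1), smul_ofMask_tab,
      toMask_ofMask (maskImage_lt σ.1 _), ofMask_toMask]
  · exact toTab_mul σ.1 τ.1

theorem MRep.one : MRep (1 : Co0) 0 idTab := by
  refine ⟨(0, 1), ?_, ?_, toTab_one⟩
  · show signs 0 _ * permHom 1 = 1
    rw [map_one, mul_one]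
    refine co0_ext fun i => Subtype.ext (funext fun k => ?_)
    simp [signs_apply]
  · show toMask (support₂ (0 : GolayPt → ZMod 2)) = 0
    rw [support₂_zero, ← ofMask_zero, toMask_ofMask (by norm_num)]

/-- The product of recorded monomials. -/
def mprod : List (ℕ × List ℕ) → ℕ × List ℕ
  | [] => (0, idTab)
  | x :: xs =>
    match mprod xs with
    | (C, t) => (x.1 ^^^ maskImage x.2 C, compTab x.2 t)

theorem MRep.prod {gs : List Co0} {xs : List (ℕ × List ℕ)}
    (h : List.Forall₂ (fun g x => MRep g x.1 x.2) gs xs) :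
    MRep gs.prod (mprod xs).1 (mprod xs).2 := by
  induction h with
  | nil => exact MRep.one
  | cons h₁ _ ih => exact h₁.mul ih

theorem MRep.inv_of {g : Co0} {C C' : ℕ} {t t' : List ℕ} (h : MRep g C t) {g' : Co0}
    (h' : MRep g' C' t') (e : C ^^^ maskImage t C' = 0) (e' : compTab t t' = idTab) :
    g⁻¹ = g' := by
  refine inv_eq_of_mul_eq_one_right (MRep.ext (C := 0) (t := idTab) ?_ MRep.one)
  have := h.mul h'
  rwa [e, e'] at this

/-- The sign change of a mask in the code, and `1` otherwise. -/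
def sgn (m : ℕ) : Co0 :=
  if h : inCode m = true then signs (wordOf (ofMask m)) (mem_supports_iff_wordOf.1
    (mem_supports_iff.2 (by rwa [toMask_ofMask (inCode_lt h)])))
  else 1

theorem mrep_sgn {m : ℕ} (h : inCode m = true) : MRep (sgn m) m idTab := by
  refine ⟨(⟨wordOf (ofMask m), mem_supports_iff_wordOf.1
    (mem_supports_iff.2 (by rwa [toMask_ofMask (inCode_lt h)]))⟩, 1), ?_, ?_, toTab_one⟩
  · rw [sgn, dif_pos h, monomial, map_one, mul_one]
  · show toMask (support₂ (wordOf (ofMask m))) = m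
    rw [support₂_wordOf, toMask_ofMask (inCode_lt h)]

theorem exists_mrep {C : ℕ} {t : List ℕ} (hC : inCode C = true) (ht : tabInM24 t = true) :
    ∃ g, MRep g C t := by
  obtain ⟨σ, hσ, e⟩ := rep_of_tabInM24 ht
  refine ⟨monomial (⟨wordOf (ofMask C), mem_supports_iff_wordOf.1
    (mem_supports_iff.2 (by rwa [toMask_ofMask (inCode_lt hC)]))⟩, ⟨σ, hσ⟩), _, rfl, ?_, e⟩
  show toMask (support₂ (wordOf (ofMask C))) = C
  rw [support₂_wordOf, toMask_ofMask (inCode_lt hC)]

/-- The monomial element of a mask and a table, and `1` if there is none. -/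
noncomputable def mon (x : ℕ × List ℕ) : Co0 :=
  open Classical in
  if h : ∃ g, MRep g x.1 x.2 then h.choose else 1

theorem mrep_mon {x : ℕ × List ℕ} (hC : inCode x.1 = true) (ht : tabInM24 x.2 = true) :
    MRep (mon x) x.1 x.2 := by
  rw [mon, dif_pos (exists_mrep hC ht)]
  exact (exists_mrep hC ht).choose_spec

end CfsgLib.StdCo0
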