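import Cfsg.Agent.StdCo0.Weights
import Cfsg.Agent.StdCo0.Data
import Cfsg.Agent.StdCo0.OrbitData

/-! The orbit certificates of the three sign changes. -/

set_option autoImplicit false
set_option maxRecDepth 20000

namespace CfsgLib.StdCo0

open CfsgLib.Golay

theorem orbit_oct : orbitOK Data.octGens Data.octU Data.hexU Data.octTabs Data.octPar Data.octRank
    Data.octRoots = true := by decide +kernel

theorem orbit_hex : orbitOK Data.octGens Data.hexU Data.octU Data.hexTabs Data.hexPar Data.hexRank
    Data.hexRoots = true := by decide +kernel

theorem orbit_dod : orbitOK Data.dodGens Data.dodU (Data.dodU ^^^ 16777215) Data.dodTabs Data.dodPar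
    Data.dodRank Data.dodRoots = true := by decide +kernel

end CfsgLib.StdCo0
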