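import Cfsg.Agent.StdCo0.Conj
import Cfsg.Agent.StdCo0.OrbitCert

/-!
Perfect 2-generated pieces of centralisers: certificates.
-/

set_option autoImplicit false
set_option maxRecDepth 20000

open scoped Pointwise commutatorElement

namespace CfsgLib.StdCo0

open Cfsg CfsgLib.Leech CfsgLib.Mathieu CfsgLib.Golay

/-- The letters of a word. -/
def letters (L : List (ℕ × List ℕ)) (w : List ℕ) : List (ℕ × List ℕ) :=
  w.map fun i => L.getD i (0, idTab)

/-- The letters of the inverse of a word. -/
def invLetters (L' : List (ℕ × List ℕ)) (w : List ℕ) : List (ℕ × List ℕ) :=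
  w.reverse.map fun i => L'.getD i (0, idTab)

/-- The letters of a product of commutators. -/
def commLetters (L L' : List (ℕ × List ℕ)) : List (List ℕ × List ℕ) → List (ℕ × List ℕ)
  | [] => []
  | (u, v) :: r =>
    letters L u ++ letters L v ++ invLetters L' u ++ invLetters L' v ++ commLetters L L' r

/-- The kernel check of a perfect generating set of 2-elements centralising a monomial element. -/
def perfOK (a : ℕ × List ℕ) (L L' : List (ℕ × List ℕ)) (cs : List (List (List ℕ × List ℕ))) :
    Bool :=
  decide (L'.length = L.length) && decide (cs.length = L.length) &&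
    (List.range L.length).all fun i =>
      let x := L.getD i (0, idTab)
      let y := L'.getD i (0, idTab)
      inCode x.1 && tabInM24 x.2 && inCode y.1 && tabInM24 y.2 &&
        mprod [x, y] == (0, idTab) &&
        mprod [x, x, x, x, x, x, x, x] == (0, idTab) &&
        mprod [x, a] == mprod [a, x] &&
        mprod (commLetters L L' (cs.getD i [])) == mprod [x]

/-- The element of a letter. -/
noncomputable def letterEl (L : List (ℕ × List ℕ)) (i : ℕ) : Co0 :=
  if i < L.length then mon (L.getD i (0, idTab)) else 1

/-- The subgroup generated by the letters. -/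
noncomputable def genSub (L : List (ℕ × List ℕ)) : Subgroup Co0 :=
  Subgroup.closure {g | ∃ i < L.length, letterEl L i = g}

/-- What the perfect generating sets give. -/
structure PerfGens (a : Co0) (P : Subgroup Co0) (gens : Set Co0) : Prop where
  closure_eq : P = Subgroup.closure gens
  two_power : ∀ g ∈ gens, g ^ 8 = 1
  comm : ∀ g ∈ gens, g * a = a * g
  perfect : gens ⊆ (⁅P, P⁆ : Subgroup Co0)

theorem perfGens_of_ok {a : Co0} {x : ℕ × List ℕ} (ha : MRep a x.1 x.2)
    {L L' : List (ℕ × List ℕ)} {cs : List (List (List ℕ × List ℕ))}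
    (h : perfOK x L L' cs = true) :
    PerfGens a (genSub L) {g | ∃ i < L.length, letterEl L i = g} := by
  simp only [perfOK, Bool.and_eq_true, decide_eq_true_eq, List.all_eq_true, List.mem_range,
    beq_iff_eq] at h
  obtain ⟨⟨hlen, -⟩, hall⟩ := h
  have hone : inCode 0 = true ∧ tabInM24 idTab = true := by decide +kernel
  have rep : ∀ i, MRep (letterEl L i) (L.getD i (0, idTab)).1 (L.getD i (0, idTab)).2 := by
    intro i
    by_cases hi : i < L.length
    · rw [letterEl, if_pos hi]
      obtain ⟨⟨⟨⟨⟨⟨⟨h1, h2⟩, -⟩, -⟩, -⟩, -⟩, -⟩, -⟩ := hall i hi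
      exact mrep_mon h1 h2
    · rw [letterEl, if_neg hi, List.getD_eq_getElem?_getD, List.getElem?_eq_none (by omega)]
      exact MRep.one
  have repInv : ∀ i, MRep (letterEl L i)⁻¹ (L'.getD i (0, idTab)).1 (L'.getD i (0, idTab)).2 := by
    intro i
    by_cases hi : i < L.length
    · obtain ⟨⟨⟨⟨⟨⟨-, h3⟩, h4⟩, h5⟩, -⟩, -⟩, -⟩ := hall i hi
      have hy := mrep_mon h3 h4
      have : (letterEl L i)⁻¹ = mon (L'.getD i (0, idTab)) := by
        refine inv_eq_of_mul_eq_one_right (MRep.ext (C := 0) (t := idTab) ?_ MRep.one)
        have := MRep.prod (gs := [letterEl L i, mon (L'.getD i (0, idTab))])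
          (xs := [L.getD i (0, idTab), L'.getD i (0, idTab)])
          (List.Forall₂.cons (rep i) (List.Forall₂.cons hy List.Forall₂.nil))
        rw [h5] at this
        simpa only [List.prod_cons, List.prod_nil, mul_one] using this
      rw [this]; exact hy
    · rw [letterEl, if_neg hi, inv_one, List.getD_eq_getElem?_getD,
        List.getElem?_eq_none (by omega)]
      exact MRep.one
  have hmem : ∀ i, letterEl L i ∈ genSub L := by
    intro i
    by_cases hi : i < L.length
    · exact Subgroup.subset_closure ⟨i, hi, rfl⟩
    · rw [letterEl, if_neg hi]; exact one_mem _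
  have hw : ∀ w : List ℕ, List.Forall₂ (fun g y => MRep g y.1 y.2)
      (w.map (letterEl L)) (letters L w) := by
    intro w
    induction w with
    | nil => exact List.Forall₂.nil
    | cons i w ih => exact List.Forall₂.cons (rep i) ih
  have hw' : ∀ w : List ℕ, List.Forall₂ (fun g y => MRep g y.1 y.2)
      (w.map fun i => (letterEl L i)⁻¹) (w.map fun i => L'.getD i (0, idTab)) := by
    intro w
    induction w with
    | nil => exact List.Forall₂.nil
    | cons i w ih => exact List.Forall₂.cons (repInv i) ih
  have hpm : ∀ w : List ℕ, (w.map (letterEl L)).prod ∈ genSub L := fun w =>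
    list_prod_mem fun g hg => by
      obtain ⟨i, -, rfl⟩ := List.mem_map.1 hg; exact hmem i
  have key : ∀ c : List (List ℕ × List ℕ), ∃ gs : List Co0,
      List.Forall₂ (fun g y => MRep g y.1 y.2) gs (commLetters L L' c) ∧
        gs.prod ∈ (⁅genSub L, genSub L⁆ : Subgroup Co0) := by
    intro c
    induction c with
    | nil => exact ⟨[], List.Forall₂.nil, by simp⟩
    | cons uv c ih =>
      obtain ⟨u, v⟩ := uv
      obtain ⟨gs, hgs, hp⟩ := ih
      refine ⟨u.map (letterEl L) ++ v.map (letterEl L) ++
        u.reverse.map (fun i => (letterEl L i)⁻¹) ++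
        v.reverse.map (fun i => (letterEl L i)⁻¹) ++ gs, ?_, ?_⟩
      · exact List.rel_append (List.rel_append (List.rel_append (List.rel_append (hw u) (hw v))
          (hw' u.reverse)) (hw' v.reverse)) hgs
      · have hinv : ∀ w : List ℕ, (w.reverse.map fun i => (letterEl L i)⁻¹).prod =
            ((w.map (letterEl L)).prod)⁻¹ := fun w => by
          rw [List.prod_inv_reverse, List.map_map, ← List.map_reverse]
          rfl
        simp only [List.prod_append, hinv]
        refine mul_mem ?_ hp
        rw [← commutatorElement_def]
        exact Subgroup.commutator_mem_commutator (hpm u) (hpm v)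
  refine ⟨rfl, ?_, ?_, ?_⟩
  · rintro _ ⟨i, hi, rfl⟩
    obtain ⟨⟨⟨-, h6⟩, -⟩, -⟩ := hall i hi
    have hp := MRep.prod (gs := List.replicate 8 (letterEl L i))
      (xs := List.replicate 8 (L.getD i (0, idTab)))
      ((show ∀ n, List.Forall₂ (fun g y => MRep g y.1 y.2) (List.replicate n (letterEl L i))
          (List.replicate n (L.getD i (0, idTab))) from fun n => by
        induction n with
        | zero => exact List.Forall₂.nil
        | succ n ih => exact List.Forall₂.cons (rep i) ih) 8)
    rw [List.prod_replicate] at hp
    refine MRep.ext ?_ MRep.one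
    rw [show List.replicate 8 (L.getD i (0, idTab)) = [L.getD i (0, idTab), L.getD i (0, idTab),
      L.getD i (0, idTab), L.getD i (0, idTab), L.getD i (0, idTab), L.getD i (0, idTab),
      L.getD i (0, idTab), L.getD i (0, idTab)] from rfl, h6] at hp
    exact hp
  · rintro _ ⟨i, hi, rfl⟩
    obtain ⟨⟨-, h7⟩, -⟩ := hall i hi
    have e1 := MRep.prod (gs := [letterEl L i, a]) (xs := [L.getD i (0, idTab), x])
      (List.Forall₂.cons (rep i) (List.Forall₂.cons ha List.Forall₂.nil))
    have e2 := MRep.prod (gs := [a, letterEl L i]) (xs := [x, L.getD i (0, idTab)])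
      (List.Forall₂.cons ha (List.Forall₂.cons (rep i) List.Forall₂.nil))
    rw [h7] at e1
    simpa using e1.ext e2
  · rintro _ ⟨i, hi, rfl⟩
    obtain ⟨-, h8⟩ := hall i hi
    obtain ⟨gs, hgs, hp⟩ := key (cs.getD i [])
    have e1 := MRep.prod hgs
    rw [h8] at e1
    have e2 := MRep.prod (gs := [letterEl L i]) (xs := [L.getD i (0, idTab)])
      (List.Forall₂.cons (rep i) List.Forall₂.nil)
    rw [show letterEl L i = gs.prod by simpa using e2.ext e1]
    exact hp

/-- The letters of a case: the given tables and the twelve basic sign changes. -/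
def signLetters (S : List (List ℕ)) : List (ℕ × List ℕ) :=
  S.map (fun s => (0, s)) ++ basisMasks.map fun b => (b, idTab)

theorem perf_checks :
    perfOK (Data.octU, idTab) (signLetters Data.octGens) (signLetters Data.octGens)
      Data.octPerfComm = true ∧
    perfOK (Data.hexU, idTab) (signLetters Data.octGens) (signLetters Data.octGens)
      Data.octPerfComm = true ∧
    perfOK (Data.dodU, idTab) (signLetters Data.dodGens) (signLetters Data.dodGens)
      Data.dodPerfComm = true ∧
    perfOK (Data.freeC, invFree) Data.fourGens Data.fourInvs Data.fourComm = true ∧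
    mprod (letters Data.fourGens Data.fourZ) = (16777215, idTab) := by
  decide +kernel

theorem negOne_mem_four : negOne ∈ genSub Data.fourGens := by
  have hrep : ∀ i, MRep (letterEl Data.fourGens i) (Data.fourGens.getD i (0, idTab)).1
      (Data.fourGens.getD i (0, idTab)).2 := by
    intro i
    by_cases hi : i < Data.fourGens.length
    · rw [letterEl, if_pos hi]
      have h := perf_checks.2.2.2.1
      simp only [perfOK, Bool.and_eq_true, decide_eq_true_eq, List.all_eq_true, List.mem_range,
        beq_iff_eq] at h
      obtain ⟨⟨⟨⟨⟨⟨⟨h1, h2⟩, -⟩, -⟩, -⟩, -⟩, -⟩, -⟩ := h.2 i hi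
      exact mrep_mon h1 h2
    · rw [letterEl, if_neg hi, List.getD_eq_getElem?_getD, List.getElem?_eq_none (by omega)]
      exact MRep.one
  have hw : ∀ w : List ℕ, List.Forall₂ (fun g y => MRep g y.1 y.2)
      (w.map (letterEl Data.fourGens)) (letters Data.fourGens w) := by
    intro w
    induction w with
    | nil => exact List.Forall₂.nil
    | cons i w ih => exact List.Forall₂.cons (hrep i) ih
  have h := MRep.prod (hw Data.fourZ)
  rw [perf_checks.2.2.2.2] at h
  rw [← h.ext mrep_negOne]
  refine list_prod_mem fun g hg => ?_
  obtain ⟨i, -, rfl⟩ := List.mem_map.1 hg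
  by_cases hi : i < Data.fourGens.length
  · exact Subgroup.subset_closure ⟨i, hi, rfl⟩
  · rw [letterEl, if_neg hi]; exact one_mem _

/-- All sign changes lie in the subgroup of a case, and so do the tables. -/
theorem sgn_mem_signLetters {S : List (List ℕ)} {a : ℕ × List ℕ}
    {cs : List (List (List ℕ × List ℕ))} (h : perfOK a (signLetters S) (signLetters S) cs = true)
    {m : ℕ} (hm : inCode m = true) : sgn m ∈ genSub (signLetters S) := by
  have hlen : (signLetters S).length = S.length + 12 := by simp [signLetters]; rfl
  have hbase : ∀ k < 12, basisMasks[k]? = some (word (2 ^ k)) := by decide +kernel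
  have hb : ∀ k < 12, sgn (word (2 ^ k)) ∈ genSub (signLetters S) := by
    intro k hk
    have hi : S.length + k < (signLetters S).length := by omega
    refine Subgroup.subset_closure ⟨S.length + k, hi, ?_⟩
    have hg : (signLetters S).getD (S.length + k) (0, idTab) = (word (2 ^ k), idTab) := by
      rw [signLetters, List.getD_eq_getElem?_getD, List.getElem?_append_right (by simp)]
      simp only [List.length_map, Nat.add_sub_cancel_left, List.getElem?_map, hbase k hk]
      rfl
    rw [letterEl, if_pos hi, hg]
    have hin := inCode_word (Nat.pow_lt_pow_right (m := k) (n := 12) one_lt_two hk)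
    exact (mrep_mon hin (show tabInM24 idTab = true by decide +kernel)).ext (mrep_sgn hin)
  have hid : ∀ m, m < 2 ^ 24 → maskImage idTab m = m := fun m hm => by
    have := smul_ofMask_tab 1 m
    rw [one_smul, toTab_one] at this
    have hl := maskImage_lt 1 m
    rw [toTab_one] at hl
    rw [← toMask_ofMask hl, ← this, toMask_ofMask hm]
  have hmul : ∀ c d, inCode c = true → inCode d = true → sgn (c ^^^ d) = sgn c * sgn d :=
    fun c d hc hd => by
    refine (mrep_sgn (inCode_xor hc hd)).ext ?_
    have := (mrep_sgn hc).mul (mrep_sgn hd)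
    rwa [hid d (inCode_lt hd), compTab_idTab_idTab] at this
  have key : ∀ n ≤ 12, ∀ i < 2 ^ n, sgn (word i) ∈ genSub (signLetters S) := by
    intro n
    induction n with
    | zero =>
      intro _ i hi
      obtain rfl : i = 0 := by omega
      have h0 : word 0 = 0 := by decide +kernel
      rw [h0, (mrep_sgn (show inCode 0 = true by decide +kernel)).ext MRep.one]
      exact one_mem _
    | succ n ih =>
      intro hn i hi
      by_cases hlt : i < 2 ^ n
      · exact ih (by omega) i hlt
      · have hlow : i % 2 ^ n < 2 ^ n := Nat.mod_lt _ (by positivity)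
        have h2n : 2 ^ n < 4096 :=
          lt_of_lt_of_eq (Nat.pow_lt_pow_right one_lt_two (show n < 12 by omega)) (by norm_num)
        have hdec : i = 2 ^ n ^^^ (i % 2 ^ n) := by
          refine Nat.eq_of_testBit_eq fun j => ?_
          rw [Nat.testBit_xor, Nat.testBit_two_pow, Nat.testBit_mod_two_pow]
          rcases lt_trichotomy j n with h | rfl | h
          · simp [h, h.ne']
          · have : i.testBit j = true := by
              rw [Nat.testBit_eq_decide_div_mod_eq, decide_eq_true_eq]
              rw [Nat.div_eq_of_lt_le (m := i) (k := 1) (by omega) (by rw [pow_succ] at hi; omega)]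
            simp [this]
          · have : i.testBit j = false := Nat.testBit_eq_false_of_lt
              (lt_of_lt_of_le hi (Nat.pow_le_pow_right (by norm_num) h))
            simp [this, h.ne, not_lt.2 h.le]
        have hw : word i = word (2 ^ n) ^^^ word (i % 2 ^ n) := by
          conv_lhs => rw [hdec]
          exact comb_xor basisMasks _ _
        rw [hw, hmul _ _ (inCode_word h2n) (inCode_word (by omega))]
        exact mul_mem (hb n (by omega)) (ih (by omega) _ hlow)
  rw [← show word (m % 4096) = m from beq_iff_eq.1 hm]
  exact key 12 le_rfl _ (Nat.mod_lt _ (by norm_num))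

theorem mon_mem_signLetters {S : List (List ℕ)} {s : List ℕ} (hs : s ∈ S) :
    mon (0, s) ∈ genSub (signLetters S) := by
  obtain ⟨i, hi, rfl⟩ := List.getElem_of_mem hs
  have hi' : i < (signLetters S).length := by simp [signLetters]; omega
  refine Subgroup.subset_closure ⟨i, hi', ?_⟩
  have hg : (signLetters S).getD i (0, idTab) = (0, S[i]) := by
    rw [signLetters, List.getD_eq_getElem?_getD, List.getElem?_append_left (by simpa using hi),
      List.getElem?_map, List.getElem?_eq_getElem hi]
    rfl
  rw [letterEl, if_pos hi', hg]

end CfsgLib.StdCo0
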