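import Cfsg.Agent.StdCo0.Mono

/-!
A bound on families of commuting involutions of the lattice with many conjugate characters.
-/

set_option autoImplicit false
set_option maxRecDepth 20000

namespace CfsgLib.StdCo0

open Cfsg CfsgLib.Leech CfsgLib.Mathieu CfsgLib.Golay
open scoped Pointwise

theorem inCode_maskImage {σ : Equiv.Perm GolayPt} (hσ : σ ∈ M24) {m : ℕ} (h : inCode m = true) :
    inCode (maskImage (toTab σ) m) = true := by
  have h1 := smul_mem_supports hσ (mem_supports_iff.2
    (show inCode (toMask (ofMask m)) = true by rwa [toMask_ofMask (inCode_lt h)]))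
  rwa [smul_ofMask_tab, mem_supports_iff, toMask_ofMask (maskImage_lt σ m)] at h1

theorem inCode_word {i : ℕ} (h : i < 4096) : inCode (word i) = true := inCode_iff.2 ⟨i, h, rfl⟩

/-- The value of the character with bits `p` on the combination with bits `i`. -/
def chi (p i : ℕ) : Bool :=
  (List.range 12).foldr (fun k b => (p.testBit k && i.testBit k) ^^ b) false

/-- The character moved by a table of order two. -/
def stepP (s : List ℕ) (p : ℕ) : ℕ :=
  (List.range 12).foldr
    (fun k n => (if chi p (maskImageF (pk s) (basisMasks.getD k 0) % 4096) then 2 ^ k else 0) ||| n) 0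

/-- The parity of the common bits, computed quickly. -/
def chiB (x : ℕ) : Bool :=
  let a := x ^^^ (x >>> 6)
  let b := a ^^^ (a >>> 3)
  ((b ^^^ (b >>> 1) ^^^ (b >>> 2)) &&& 1) == 1

/-- A linear map of characters given by two packed tables. -/
def stepT (T : ℕ × ℕ) (p : ℕ) : ℕ :=
  ((T.1 >>> (12 * (p % 64))) &&& 4095) ^^^ ((T.2 >>> (12 * (p / 64))) &&& 4095)

/-- Entry of a packed array. -/
def ent (P p : ℕ) : ℕ := (P >>> (16 * p)) &&& 65535

/-- Grow the list of a tree by coded entries. -/
def treeList (Ts : List (ℕ × ℕ)) : List ℕ → List ℕ → Option (List ℕ)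
  | [], L => some L
  | e :: es, L =>
    if e / 262144 < Ts.length ∧ e / 4096 % 64 < L.length ∧
        stepT (Ts.getD (e / 262144) (0, 0)) (L.getD (e / 4096 % 64) 0) = e % 4096
    then treeList Ts es (L ++ [e % 4096]) else none

/-- A root with 25 different translates. -/
def rootOK (Ts : List (ℕ × ℕ)) (r : ℕ × List ℕ) : Bool :=
  match treeList Ts r.2 [r.1] with
  | none => false
  | some L => decide (25 ≤ L.length) && decide L.Nodup

/-- The rule for one character: a root, or a step towards one. -/
def parOK (Ts : List (ℕ × ℕ)) (P R : ℕ) (roots : List (ℕ × List ℕ)) (Um Km p : ℕ) : Bool :=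
  !(chiB (p &&& Um) && chiB (p &&& Km)) ||
    if ent R p == 0 then roots.any fun r => r.1 == p
    else
      let k := ent P p / 4096
      let q := stepT (Ts.getD k (0, 0)) p
      decide (k < Ts.length) && chiB (q &&& Um) && chiB (q &&& Km) && decide (ent R q < ent R p)

/-- The tables are those of the permutations. -/
def tabsOK (S : List (List ℕ)) (Ts : List (ℕ × ℕ)) : Bool :=
  decide (Ts.length = S.length) &&
    (List.range S.length).all fun k =>
      (List.range 64).all fun a =>
        stepT (Ts.getD k (0, 0)) a == stepP (S.getD k []) a &&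
        stepT (Ts.getD k (0, 0)) (64 * a) == stepP (S.getD k []) (64 * a)

/-- The kernel check: each admissible character leads to one with 25 different translates. -/
def orbitOK (S : List (List ℕ)) (U K : ℕ) (Ts : List (ℕ × ℕ)) (P R : ℕ)
    (roots : List (ℕ × List ℕ)) : Bool :=
  tabsOK S Ts && roots.all (rootOK Ts) &&
    (List.range 64).all (fun a => (List.range 64).all fun b =>
      parOK Ts P R roots (U % 4096) (K % 4096) (64 * a + b)) &&
    S.all fun s => tabInM24 s && compTab s s == idTab

theorem chiB_table : ((List.range 64).all fun a => (List.range 64).all fun b =>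
    chiB (64 * a + b) == (List.range 12).foldr (fun k c => (64 * a + b).testBit k ^^ c) false) =
      true := by
  decide +kernel

theorem chiB_cases : ∀ x < 4096,
    chiB x = (List.range 12).foldr (fun k b => x.testBit k ^^ b) false := by
  intro x hx
  have h := List.all_eq_true.1 (List.all_eq_true.1 chiB_table (x / 64)
    (List.mem_range.2 (by omega))) (x % 64) (List.mem_range.2 (by omega))
  rwa [beq_iff_eq, Nat.div_add_mod] at h

theorem chiB_eq {p i : ℕ} (hp : p < 4096) : chiB (p &&& i) = chi p i := by
  rw [chiB_cases _ (lt_of_le_of_lt Nat.and_le_left hp)]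
  simp only [chi, Nat.testBit_and]

theorem chi_xor (p q i : ℕ) : chi (p ^^^ q) i = (chi p i ^^ chi q i) := by
  unfold chi
  induction List.range 12 with
  | nil => simp
  | cons a l ih =>
    simp only [List.foldr_cons]
    rw [ih, Nat.testBit_xor]
    cases p.testBit a <;> cases q.testBit a <;> cases i.testBit a <;> simp

theorem testBit_stepP (s : List ℕ) (p k : ℕ) : (stepP s p).testBit k =
    (decide (k < 12) && chi p (maskImageF (pk s) (basisMasks.getD k 0) % 4096)) := by
  unfold stepP
  have gen : ∀ (F : ℕ → Bool) (L : List ℕ),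
      (L.foldr (fun j m => (if F j then 2 ^ j else 0) ||| m) 0).testBit k =
        (decide (k ∈ L) && F k) := by
    intro F L
    induction L with
    | nil => simp
    | cons a L ihL =>
      rw [List.foldr_cons, Nat.testBit_or, ihL]
      by_cases hak : a = k
      · subst hak
        cases F a <;> simp
      · have : ¬ k = a := fun h => hak h.symm
        cases F a <;> simp [hak, this]
  rw [gen (fun j => chi p (maskImageF (pk s) (basisMasks.getD j 0) % 4096)),
    decide_eq_decide.2 List.mem_range]

theorem stepP_lt (s : List ℕ) (p : ℕ) : stepP s p < 4096 := by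
  refine Nat.lt_pow_two_of_testBit (n := 12) _ fun k hk => ?_
  rw [testBit_stepP, decide_eq_false (by omega), Bool.false_and]

theorem stepP_xor (s : List ℕ) (p q : ℕ) : stepP s (p ^^^ q) = stepP s p ^^^ stepP s q := by
  refine Nat.eq_of_testBit_eq fun k => ?_
  simp only [Nat.testBit_xor, testBit_stepP, chi_xor]
  cases decide (k < 12) <;> simp

theorem stepT_eq {S : List (List ℕ)} {Ts : List (ℕ × ℕ)} (h : tabsOK S Ts = true) {k : ℕ}
    (hk : k < Ts.length) {p : ℕ} (hp : p < 4096) :
    stepT (Ts.getD k (0, 0)) p = stepP (S.getD k []) p := by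
  simp only [tabsOK, Bool.and_eq_true, decide_eq_true_eq, List.all_eq_true, List.mem_range,
    beq_iff_eq] at h
  have h' := h.2 k (h.1 ▸ hk)
  have hlo := (h' (p % 64) (Nat.mod_lt _ (by norm_num))).1
  have hhi := (h' (p / 64) (by omega)).2
  have z1 : stepT (Ts.getD k (0, 0)) 0 = 0 := by
    rw [show (0 : ℕ) = 64 * 0 from rfl, (h' 0 (by norm_num)).2]
    have := stepP_xor (S.getD k []) 0 0
    rw [Nat.xor_self, Nat.xor_self] at this
    exact this
  have hd : p = (p % 64) ^^^ 64 * (p / 64) := by
    refine Nat.eq_of_testBit_eq fun j => ?_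
    rw [Nat.testBit_xor, show (64 : ℕ) = 2 ^ 6 from rfl, Nat.testBit_mod_two_pow,
      Nat.testBit_two_pow_mul, Nat.testBit_div_two_pow]
    by_cases hj : j < 6
    · simp [hj, not_le.2 hj]
    · simp [hj, not_lt.1 hj]
  conv_rhs => rw [hd, stepP_xor, ← hlo, ← hhi]
  simp only [stepT, Nat.mod_mod, Nat.mul_mod_right, Nat.div_eq_of_lt (Nat.mod_lt p (show 64 > 0 by norm_num)),
    Nat.mul_div_cancel_left _ (show 64 > 0 by norm_num), Nat.mul_zero, Nat.shiftRight_zero]
  have e : ((Ts.getD k (0, 0)).1 &&& 4095) ^^^ ((Ts.getD k (0, 0)).2 &&& 4095) = 0 := by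
    simpa [stepT] using z1
  rw [show ∀ a b c d : ℕ, (a ^^^ b) ^^^ (c ^^^ d) = (a ^^^ d) ^^^ (c ^^^ b) from fun a b c d => by
    rw [Nat.xor_assoc, Nat.xor_assoc, Nat.xor_left_comm b c d, Nat.xor_comm b d,
      Nat.xor_left_comm c d b], e, Nat.xor_zero]

theorem comb_sign {α : Type*} (e : ℕ → α → α) (neg : α → α) (v : α)
    (h0 : e 0 v = v) (hneg : ∀ m w, e m (neg w) = neg (e m w)) (hnn : ∀ w, neg (neg w) = w)
    (hmul : ∀ i j, i < 4096 → j < 4096 → e (word i ^^^ word j) v = e (word i) (e (word j) v))
    {p : ℕ} (hb : ∀ k < 12, e (word (2 ^ k)) v = bif p.testBit k then neg v else v) :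
    ∀ i < 4096, e (word i) v = bif chi p i then neg v else v := by
  have key : ∀ n ≤ 12, ∀ i < 2 ^ n, e (word i) v =
      bif (List.range n).foldr (fun k b => (p.testBit k && i.testBit k) ^^ b) false
      then neg v else v := by
    intro n
    induction n with
    | zero =>
      intro _ i hi
      obtain rfl : i = 0 := by omega
      rw [show word 0 = 0 from by decide +kernel]
      simpa using h0
    | succ n ih =>
      intro hn i hi
      rw [List.range_succ, List.foldr_append]
      simp only [List.foldr_cons, List.foldr_nil, Bool.xor_false]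
      have hfold : ∀ (j : ℕ) (b : Bool), (List.range n).foldr
          (fun k b => (p.testBit k && j.testBit k) ^^ b) b =
          (b ^^ (List.range n).foldr (fun k b => (p.testBit k && j.testBit k) ^^ b) false) := by
        intro j b
        induction (List.range n) with
        | nil => simp
        | cons a l ihl =>
          simp only [List.foldr_cons]; rw [ihl]
          cases p.testBit a <;> cases j.testBit a <;> cases b <;> simp
      rw [hfold]
      by_cases hlt : i < 2 ^ n
      · rw [Nat.testBit_eq_false_of_lt hlt, Bool.and_false, Bool.false_xor]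
        exact ih (by omega) i hlt
      · have hlow : i % 2 ^ n < 2 ^ n := Nat.mod_lt _ (by positivity)
        have hdec : i = 2 ^ n ^^^ (i % 2 ^ n) := by
          refine Nat.eq_of_testBit_eq fun j => ?_
          rw [Nat.testBit_xor, Nat.testBit_two_pow, Nat.testBit_mod_two_pow]
          rcases lt_trichotomy j n with h | rfl | h
          · simp [h, h.ne']
          · have : i.testBit j = true := by
              rw [Nat.testBit_eq_decide_div_mod_eq, decide_eq_true_eq]
              rw [Nat.div_eq_of_lt_le (m := i) (k := 1) (by omega) (by rw [pow_succ] at hi; omega)]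
            simp [this]
          · have : i.testBit j = false := Nat.testBit_eq_false_of_lt
              (lt_of_lt_of_le hi (Nat.pow_le_pow_right (by norm_num) h))
            simp [this, h.ne, not_lt.2 h.le]
        have hbit : i.testBit n = true := by
          rw [hdec, Nat.testBit_xor, Nat.testBit_two_pow,
            Nat.testBit_eq_false_of_lt hlow]
          simp
        have hw : word i = word (2 ^ n) ^^^ word (i % 2 ^ n) := by
          conv_lhs => rw [hdec]
          exact comb_xor basisMasks _ _
        have hagree : (List.range n).foldr (fun k b => (p.testBit k && (i % 2 ^ n).testBit k) ^^ b)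
            false = (List.range n).foldr (fun k b => (p.testBit k && i.testBit k) ^^ b) false := by
          refine List.foldr_ext _ _ _ fun k hk b => ?_
          rw [Nat.testBit_mod_two_pow, List.mem_range] at *
          simp [hk]
        have h2n : 2 ^ n < 4096 :=
          lt_of_lt_of_eq (Nat.pow_lt_pow_right one_lt_two (show n < 12 by omega)) (by norm_num)
        rw [hw, hmul _ _ h2n (by omega),
          ih (by omega) _ hlow, hagree, hbit, Bool.and_true]
        cases (List.range n).foldr (fun k b => (p.testBit k && i.testBit k) ^^ b) false <;>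
          simp only [cond_false, cond_true, hneg, hb n (by omega)] <;>
          cases p.testBit n <;> simp [hnn]
  exact fun i hi => key 12 le_rfl i hi

/-- Commuting involutions of the lattice with a large orbit of characters do not exist. -/
theorem no_embedding (S : List (List ℕ)) (U K : ℕ) (hU : inCode U = true) (hK : inCode K = true)
    {Ts : List (ℕ × ℕ)} {P R : ℕ} {roots : List (ℕ × List ℕ)}
    (hcert : orbitOK S U K Ts P R roots = true) (e : ℕ → Co0)
    (hmul : ∀ a b, inCode a = true → inCode b = true → e (a ^^^ b) = e a * e b)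
    (heU : e U = negOne) (heK : e K ≠ 1)
    (hconj : ∀ s ∈ S, ∃ f : Co0, ∀ m, inCode m = true → f * e m * f⁻¹ = e (maskImage s m)) :
    False := by
  simp only [orbitOK, Bool.and_eq_true, List.all_eq_true] at hcert
  obtain ⟨⟨⟨htabs, hroots⟩, horb⟩, hS⟩ := hcert
  have hin : ∀ k, k < 12 → inCode (word (2 ^ k)) = true := fun k hk =>
    inCode_word (Nat.pow_lt_pow_right (m := k) (n := 12) (by norm_num) hk)
  have h00 : inCode 0 = true := by decide +kernel
  have he0 : e 0 = 1 := by
    have := hmul 0 0 h00 h00
    rw [Nat.xor_self] at this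
    exact left_eq_mul.1 this
  have hcomm : ∀ a b, inCode a = true → inCode b = true → e a * e b = e b * e a := fun a b ha hb => by
    rw [← hmul a b ha hb, Nat.xor_comm, hmul b a hb ha]
  have hsq : ∀ a, inCode a = true → e a * e a = 1 := fun a ha => by
    rw [← hmul a a ha ha, Nat.xor_self, he0]
  -- eigenvectors
  let Ev : ℕ → leechLattice → Prop := fun p v => v ≠ 0 ∧ p < 4096 ∧
    ∀ k < 12, e (word (2 ^ k)) • v = bif p.testBit k then -v else v
  have hchi : ∀ p v, Ev p v → ∀ m, inCode m = true →
      e m • v = bif chi p (m % 4096) then -v else v := by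
    intro p v hv m hm
    have := comb_sign (α := leechLattice) (fun a w => e a • w) Neg.neg v
      (by simp only [he0, one_smul]) (fun a w => co0_map_neg _ _) neg_neg
      (fun i j hi hj => by rw [hmul _ _ (inCode_word hi) (inCode_word hj), mul_smul]) hv.2.2 (m % 4096)
      (Nat.mod_lt _ (by norm_num))
    rwa [show word (m % 4096) = m from beq_iff_eq.1 hm] at this
  -- a first eigenvector
  have start : ∃ p v, Ev p v ∧ e K • v = -v := by
    obtain ⟨w, hw⟩ : ∃ w, e K • w ≠ w := by
      by_contra hcon
      push Not at hcon
      exact heK (co0_ext fun i => by rw [hcon, one_smul])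
    have hne2 : ∀ x : leechLattice, x + x = 0 → x = 0 := fun x hx => by
      refine Subtype.ext (funext fun i => ?_)
      have := congrFun (congrArg Subtype.val hx) i
      simp only [AddSubgroup.coe_add, ZeroMemClass.coe_zero, Pi.add_apply, Pi.zero_apply] at this
      simp only [ZeroMemClass.coe_zero, Pi.zero_apply]
      omega
    have key : ∀ n ≤ 12, ∃ (p : ℕ) (v : leechLattice), v ≠ 0 ∧ p < 2 ^ n ∧ e K • v = -v ∧
        ∀ k < n, e (word (2 ^ k)) • v = bif p.testBit k then -v else v := by
      intro n
      induction n with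
      | zero =>
        intro _
        refine ⟨0, w - e K • w, sub_ne_zero.2 (Ne.symm hw), by norm_num, ?_, fun k hk => absurd hk (by omega)⟩
        rw [co0_map_sub, ← mul_smul, hsq K hK, one_smul, neg_sub]
      | succ n ih =>
        intro hn
        obtain ⟨p, v, hv, hp, hK', hev⟩ := ih (by omega)
        set b := e (word (2 ^ n)) with hb
        have hbb : b • b • v = v := by rw [← mul_smul, hsq _ (hin n (by omega)), one_smul]
        have hcK : e K • b • v = -(b • v) := by
          rw [← mul_smul, hcomm K _ hK (hin n (by omega)), mul_smul, hK', co0_map_neg]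
        have hck : ∀ k < n, e (word (2 ^ k)) • b • v = bif p.testBit k then -(b • v) else b • v := by
          intro k hk
          rw [← mul_smul, hcomm _ _ (hin k (by omega)) (hin n (by omega)), mul_smul, hev k hk]
          cases p.testBit k <;> simp [co0_map_neg, hb]
        by_cases hplus : v + b • v = 0
        · have hbv : b • v = -v := eq_neg_of_add_eq_zero_right hplus
          refine ⟨p + 2 ^ n, v, hv, by rw [pow_succ]; omega, hK', fun k hk => ?_⟩
          rcases Nat.lt_succ_iff_lt_or_eq.1 hk with hk | rfl
          · rw [hev k hk, add_comm, Nat.testBit_two_pow_add_gt hk]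
          · rw [← hb, hbv, add_comm, Nat.testBit_two_pow_add_eq, Nat.testBit_eq_false_of_lt hp]
            simp
        · refine ⟨p, v + b • v, hplus, by rw [pow_succ]; omega, ?_, fun k hk => ?_⟩
          · rw [co0_map_add, hK', hcK]; abel
          · rcases Nat.lt_succ_iff_lt_or_eq.1 hk with hk | rfl
            · rw [co0_map_add, hev k hk, hck k hk]
              cases p.testBit k <;> simp [add_comm]
            · rw [← hb, co0_map_add, hbb, Nat.testBit_eq_false_of_lt hp]
              simp [add_comm]
    obtain ⟨p, v, hv, hp, hK', hev⟩ := key 12 le_rfl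
    exact ⟨p, v, ⟨hv, hp, hev⟩, hK'⟩
  obtain ⟨p₀, v₀, hev₀, hK₀⟩ := start
  have hneg : ∀ v : leechLattice, v ≠ 0 → -v ≠ v := fun v hv he => hv (by
    refine Subtype.ext (funext fun i => ?_)
    have := congrFun (congrArg Subtype.val he) i
    simp only [AddSubgroup.coe_neg, Pi.neg_apply] at this
    simp only [ZeroMemClass.coe_zero, Pi.zero_apply]
    omega)
  have hcU : chi p₀ (U % 4096) = true := by
    have := hchi p₀ v₀ hev₀ U hU
    rw [heU, negOne_smul] at this
    cases h : chi p₀ (U % 4096)
    · rw [h] at this; exact absurd this (hneg v₀ hev₀.1)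
    · rfl
  have hcK : chi p₀ (K % 4096) = true := by
    have := hchi p₀ v₀ hev₀ K hK
    rw [hK₀] at this
    cases h : chi p₀ (K % 4096)
    · rw [h] at this; exact absurd this (hneg v₀ hev₀.1)
    · rfl
  -- every character reached has an eigenvector
  have hstep : ∀ s ∈ S, ∀ p, (∃ v, Ev p v) → ∃ v, Ev (stepP s p) v := by
    rintro s hs p ⟨v, hv⟩
    obtain ⟨f, hf⟩ := hconj s hs
    have hs' := hS s hs
    rw [beq_iff_eq] at hs'
    obtain ⟨σ, hσ, rfl⟩ := rep_of_tabInM24 hs'.1
    have hσ2 : σ * σ = 1 := toTab_injective (by rw [toTab_mul, hs'.2, toTab_one])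
    have hbit := testBit_stepP (toTab σ) p
    refine ⟨f • v, fun h => hv.1 (smul_left_cancel f (h.trans (co0_map_zero f).symm)), ?_, ?_⟩
    · refine Nat.lt_pow_two_of_testBit (n := 12) _ fun k hk => ?_
      rw [hbit, decide_eq_false (by omega), Bool.false_and]
    · intro k hk
      rw [hbit, decide_eq_true hk, Bool.true_and, maskImageF_eq]
      have hbk : word (2 ^ k) = basisMasks.getD k 0 := by
        revert k; decide +kernel
      rw [hbk]
      have hbc : inCode (basisMasks.getD k 0) = true := hbk ▸ hin k hk
      have him : inCode (maskImage (toTab σ) (basisMasks.getD k 0)) = true :=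
        inCode_maskImage hσ hbc
      have hback : maskImage (toTab σ) (maskImage (toTab σ) (basisMasks.getD k 0)) =
          basisMasks.getD k 0 := by
        have h1 := smul_ofMask_tab σ (basisMasks.getD k 0)
        have h2 := smul_ofMask_tab σ (maskImage (toTab σ) (basisMasks.getD k 0))
        rw [← h1, smul_smul, hσ2, one_smul] at h2
        rw [← toMask_ofMask (maskImage_lt σ _), ← h2, toMask_ofMask (inCode_lt hbc)]
      have := hf _ him
      rw [hback] at this
      rw [← this, mul_smul, mul_smul, inv_smul_smul, hchi p v hv _ him]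
      cases chi p (maskImage (toTab σ) (basisMasks.getD k 0) % 4096) <;> simp [co0_map_neg]
  have hstepT : ∀ k < Ts.length, ∀ p, (∃ v, Ev p v) →
      ∃ v, Ev (stepT (Ts.getD k (0, 0)) p) v := by
    intro k hk p hp
    have hlen : Ts.length = S.length := by
      simp only [tabsOK, Bool.and_eq_true, decide_eq_true_eq] at htabs
      exact htabs.1
    obtain ⟨v, hv⟩ := hp
    rw [stepT_eq htabs hk hv.2.1]
    refine hstep _ ?_ p ⟨v, hv⟩
    rw [List.getD_eq_getElem _ _ (hlen ▸ hk)]
    exact List.getElem_mem _
  have htree : ∀ es L, (∀ q ∈ L, ∃ v, Ev q v) → ∀ L', treeList Ts es L = some L' →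
      ∀ q ∈ L', ∃ v, Ev q v := by
    intro es
    induction es with
    | nil =>
      intro L hL L' h
      simp only [treeList, Option.some.injEq] at h
      exact h ▸ hL
    | cons x es ih =>
      intro L hL L' h
      simp only [treeList] at h
      split at h
      case isFalse => simp at h
      case isTrue hc =>
        refine ih _ (fun r hr => ?_) L' h
        rcases List.mem_append.1 hr with hr | hr
        · exact hL r hr
        · rw [List.mem_singleton.1 hr, ← hc.2.2, List.getD_eq_getElem L _ hc.2.1]
          exact hstepT _ hc.1 _ (hL _ (List.getElem_mem _))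
  have hreach : ∀ n p, ent R p = n → chiB (p &&& (U % 4096)) = true →
      chiB (p &&& (K % 4096)) = true → (∃ v, Ev p v) →
      ∃ L : List ℕ, 25 ≤ L.length ∧ L.Nodup ∧ ∀ q ∈ L, ∃ v, Ev q v := by
    intro n
    induction n using Nat.strong_induction_on with
    | _ n ih =>
      intro p hn hpU hpK hp
      have hp12 : p < 4096 := hp.choose_spec.2.1
      have hrule := horb (p / 64) (List.mem_range.2 (by omega)) (p % 64)
        (List.mem_range.2 (by omega))
      rw [Nat.div_add_mod] at hrule
      simp only [parOK, hpU, hpK, Bool.and_self, Bool.not_true, Bool.false_or] at hrule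
      split at hrule
      case isTrue hz =>
        rw [List.any_eq_true] at hrule
        obtain ⟨r, hr, hrp⟩ := hrule
        rw [beq_iff_eq] at hrp
        have hok := hroots r hr
        unfold rootOK at hok
        rcases hL' : treeList Ts r.2 [r.1] with _ | L
        · simp [hL'] at hok
        · simp only [hL', Bool.and_eq_true, decide_eq_true_eq] at hok
          exact ⟨L, hok.1, hok.2, htree _ _ (fun x hx => by
            rw [List.mem_singleton.1 hx, hrp]; exact hp) L hL'⟩
      case isFalse hz =>
        simp only [Bool.and_eq_true, decide_eq_true_eq] at hrule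
        obtain ⟨⟨⟨hk, hqU⟩, hqK⟩, hlt⟩ := hrule
        exact ih _ (hn ▸ hlt) _ rfl hqU hqK (hstepT _ hk p hp)
  obtain ⟨L, hlen, hnd, hL⟩ := hreach _ p₀ rfl (by rw [chiB_eq hev₀.2.1, hcU])
    (by rw [chiB_eq hev₀.2.1, hcK]) ⟨v₀, hev₀⟩
  let q : Fin 25 → ℕ := fun i => L[i.val]'(by omega)
  have hq : Function.Injective q := fun i j hij => Fin.ext (hnd.getElem_inj_iff.1 hij)
  choose u hu using fun i : Fin 25 => hL (q i) (List.getElem_mem _)
  have horth : ∀ i j, i ≠ j → dotInt (u i : GolayPt → ℤ) (u j : GolayPt → ℤ) = 0 := by
    intro i j hij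
    obtain ⟨k, hk⟩ : ∃ k, (q i).testBit k ≠ (q j).testBit k := by
      by_contra hcon
      push Not at hcon
      exact hij (hq (Nat.eq_of_testBit_eq hcon))
    have hk12 : k < 12 := by
      by_contra hge
      have h4 : (4096 : ℕ) ≤ 2 ^ k :=
        le_trans (by norm_num) (Nat.pow_le_pow_right (by norm_num : 0 < 2) (not_lt.1 hge))
      exact hk (by rw [Nat.testBit_eq_false_of_lt ((hu i).2.1.trans_le h4),
        Nat.testBit_eq_false_of_lt ((hu j).2.1.trans_le h4)])
    have h := co0_dotInt (e (word (2 ^ k))) (u i) (u j)
    rw [(hu i).2.2 k hk12, (hu j).2.2 k hk12] at h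
    have hn : ∀ a b : GolayPt → ℤ, dotInt (-a) b = -dotInt a b ∧ dotInt a (-b) = -dotInt a b :=
      fun a b => ⟨by simp [dotInt], by simp [dotInt]⟩
    cases hi : (q i).testBit k <;> cases hj : (q j).testBit k <;>
      simp only [hi, hj, cond_true, cond_false, AddSubgroup.coe_neg, (hn _ _).1, (hn _ _).2,
        ne_eq, not_true_eq_false] at h hk <;> omega
  have hli : LinearIndependent ℤ fun i : Fin 25 => ((u i : leechLattice) : GolayPt → ℤ) := by
    rw [Fintype.linearIndependent_iff]
    intro g hg i
    have h := congrArg (fun x => dotInt x (u i : GolayPt → ℤ)) hg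
    simp only [dotInt, Finset.sum_apply, Pi.smul_apply, smul_eq_mul, Pi.zero_apply, zero_mul,
      Finset.sum_const_zero, Finset.sum_mul, mul_assoc] at h
    rw [Finset.sum_comm, Finset.sum_eq_single i (fun j _ hji => by
        rw [← Finset.mul_sum]
        exact mul_eq_zero_of_right _ (horth j i hji)) (fun h => absurd (Finset.mem_univ i) h),
      ← Finset.mul_sum] at h
    rcases mul_eq_zero.1 h with h | h
    · exact h
    · exfalso
      refine (hu i).1 (Subtype.ext (funext fun k => ?_))
      have := (Finset.sum_eq_zero_iff_of_nonneg fun k _ => mul_self_nonneg _).1 h k (Finset.mem_univ k)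
      simpa using this
  have := hli.fintype_card_le_finrank
  rw [Module.finrank_pi, Fintype.card_fin] at this
  have h24 : Fintype.card GolayPt = 24 := by decide
  omega

end CfsgLib.StdCo0
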